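import Cfsg.Agent.Cores.PMinimal
import Cfsg.Agent.Cores.PCores
import Cfsg.Agent.Cores.FStar
import Cfsg.Agent.Cores.Components
import Cfsg.Agent.Subnormal.Basic

/-!
Isolated `p`-minimal subgroups: a `p`-minimal `P ≥ S` such that the subgroup `L` generated by `N_G(S)` and the
other `p`-minimal overgroups of `S` has `O_p(L) ≰ O_p(P)`.
-/

set_option autoImplicit false

open Cfsg
open scoped commutatorElement

namespace CfsgLib.Cores

variable {G : Type*} [Group G] [Finite G] {p : ℕ} [hp : Fact p.Prime]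

/-- `O^p(P)` inside `G`. -/
abbrev resIn (p : ℕ) (P : Subgroup G) : Subgroup G := (pResidual p ↥P).map P.subtype

/-- `O_p(P)` inside `G`. -/
abbrev coreIn (p : ℕ) (P : Subgroup G) : Subgroup G := (pCore p ↥P).map P.subtype

/-- The hypotheses on an isolated `p`-minimal subgroup. -/
structure IsolatedPair (S : Sylow p G) (P L : Subgroup G) : Prop where
  sylow_le : (S : Subgroup G) ≤ P
  minimal : IsPMinimal p ↥P
  normalizer_le : Subgroup.normalizer ((S : Subgroup G) : Set G) ≤ L
  other_le : ∀ P' : Subgroup G, (S : Subgroup G) ≤ P' → IsPMinimal p ↥P' → P' ≠ P → P' ≤ L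
  isolated : ¬ coreIn p L ≤ coreIn p P

omit [Finite G] hp in
theorem mem_resIn {P : Subgroup G} {g : G} (hg : g ∈ P) (h : (orderOf g).Coprime p) : g ∈ resIn p P :=
  ⟨⟨g, hg⟩, Subgroup.subset_closure (show (orderOf (⟨g, hg⟩ : P)).Coprime p by rwa [Subgroup.orderOf_mk]), rfl⟩

omit [Finite G] hp in
theorem resIn_le_of_forall {P K : Subgroup G} (h : ∀ g ∈ P, (orderOf g).Coprime p → g ∈ K) :
    resIn p P ≤ K := by
  rw [resIn, pResidual, MonoidHom.map_closure, Subgroup.closure_le]
  rintro _ ⟨g, hg, rfl⟩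
  exact h g g.2 (show (orderOf (g : G)).Coprime p by rwa [Subgroup.orderOf_coe])

/-- `O^p(P)` lies in any subgroup normalised by a `p`-group `T` with `P ≤ K T`. -/
theorem resIn_le_of_le_sup {P K T : Subgroup G} (hT : IsPGroup p T)
    (hTK : T ≤ Subgroup.normalizer (K : Set G)) (h : P ≤ K ⊔ T) : resIn p P ≤ K :=
  resIn_le_of_forall fun _ hg hc => mem_of_coprime_of_mem_sup_of_le_normalizer hT hTK hc (h hg)

omit [Finite G] hp in
theorem le_normalizer_resIn (P : Subgroup G) : P ≤ Subgroup.normalizer (resIn p P : Set G) :=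
  (Subgroup.normal_subgroupOf_iff_le_normalizer (Subgroup.map_subtype_le _)).mp (by
    rw [Subgroup.subgroupOf, Subgroup.comap_map_eq_self_of_injective P.subtype_injective]
    haveI : (pResidual p ↥P).Characteristic := LocalCharP.pResidual_characteristic
    infer_instance)

omit [Finite G] hp in
theorem le_normalizer_coreIn (P : Subgroup G) : P ≤ Subgroup.normalizer (coreIn p P : Set G) :=
  (Subgroup.normal_subgroupOf_iff_le_normalizer (Subgroup.map_subtype_le _)).mp (by
    rw [Subgroup.subgroupOf, Subgroup.comap_map_eq_self_of_injective P.subtype_injective]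
    exact Constrained.instNormalPCore p)

omit [Finite G] hp in
theorem normal_le_of_normalClosure {Y : Subgroup G} {X : Subgroup G}
    (hY : Y = Subgroup.normalClosure (X : Set G)) {N : Subgroup G} [N.Normal] (h : X ≤ N) : Y ≤ N :=
  hY ▸ Subgroup.normalClosure_le_normal h

namespace IsolatedPair

variable {S : Sylow p G} {P L : Subgroup G} (H : IsolatedPair S P L)
include H

theorem sylow_le_L : (S : Subgroup G) ≤ L := Subgroup.le_normalizer.trans H.normalizer_le

theorem le_of_not_le {K : Subgroup G} (hSK : (S : Subgroup G) ≤ K) (hPK : ¬ P ≤ K) : K ≤ L :=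
  le_of_pMinimal_le S hSK (inf_le_left.trans H.normalizer_le) fun P' h1 h2 h3 =>
    H.other_le P' h1 h3 fun e => hPK (e ▸ h2)

theorem sup_sylow : resIn p P ⊔ (S : Subgroup G) = P := by
  refine le_antisymm (sup_le (Subgroup.map_subtype_le _) H.sylow_le) fun g hg => ?_
  have h := LocalCharP.pResidual_sup_sylow (S.subtype H.sylow_le)
  have h2 : (pResidual p ↥P ⊔ ((S.subtype H.sylow_le : Sylow p P) : Subgroup P)).map P.subtype ≤
      resIn p P ⊔ (S : Subgroup G) := by
    rw [Subgroup.map_sup]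
    exact sup_le_sup_left (fun x ⟨w, hw, e⟩ => e ▸ hw) _
  rw [h] at h2
  exact h2 ⟨⟨g, hg⟩, Subgroup.mem_top _, rfl⟩

theorem isPGroup_R : IsPGroup p (coreIn p L) := Constrained.isPGroup_pCore.map _

theorem R_le_sylow : coreIn p L ≤ (S : Subgroup G) := by
  have hn : (S : Subgroup G) ≤ Subgroup.normalizer (coreIn p L : Set G) :=
    H.sylow_le_L.trans (le_normalizer_coreIn L)
  have := S.is_maximal' (H.isPGroup_R.to_sup_of_normal_left' S.2 hn) le_sup_right
  exact le_sup_left.trans this.le

theorem sylow_le_normalizer_R : (S : Subgroup G) ≤ Subgroup.normalizer (coreIn p L : Set G) :=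
  H.sylow_le_L.trans (le_normalizer_coreIn L)

theorem R_le_normalizer_res : coreIn p L ≤ Subgroup.normalizer (resIn p P : Set G) :=
  (H.R_le_sylow.trans H.sylow_le).trans (le_normalizer_resIn P)

/-- `O^p(P) = [O^p(P), O_p(L)]`. -/
theorem commutator_res : ⁅resIn p P, coreIn p L⁆ = resIn p P := by
  set X := resIn p P with hX
  set R := coreIn p L with hR
  refine le_antisymm (Coprime.commutator_le_of_le_normalizer H.R_le_normalizer_res) ?_
  have hSX : (S : Subgroup G) ≤ Subgroup.normalizer (X : Set G) := H.sylow_le.trans (le_normalizer_resIn P)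
  have hSK := le_normalizer_commutator hSX H.sylow_le_normalizer_R
  have hSN := le_normalizer_sup hSK H.sylow_le_normalizer_R
  have hXN : X ≤ Subgroup.normalizer ((⁅X, R⁆ ⊔ R : Subgroup G) : Set G) :=
    Coprime.le_normalizer_of_conj_mem fun x hx y hy => by
      have hle : ⁅X, R⁆ ⊔ R ≤ (⁅X, R⁆ ⊔ R).comap (MulAut.conj x).toMonoidHom := by
        refine sup_le (fun k hk => Subgroup.mem_sup_left ?_) fun r hr => ?_
        · exact Coprime.conj_mem_of_le_normalizer (Subgroup.normalizer_commutator_ge_left X R) hx hk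
        · show x * r * x⁻¹ ∈ ⁅X, R⁆ ⊔ R
          rw [show x * r * x⁻¹ = ⁅x, r⁆ * r by simp [commutatorElement_def, mul_assoc]]
          exact mul_mem (Subgroup.mem_sup_left (Subgroup.commutator_mem_commutator hx hr))
            (Subgroup.mem_sup_right hr)
      exact hle hy
  set N := ⁅X, R⁆ ⊔ R with hN
  have hNP : N ≤ P := sup_le ((Coprime.commutator_le_of_le_normalizer H.R_le_normalizer_res).trans
    (Subgroup.map_subtype_le _)) (H.R_le_sylow.trans H.sylow_le)
  have hPN : P ≤ Subgroup.normalizer (N : Set G) := H.sup_sylow.ge.trans (sup_le hXN hSN)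
  haveI : (N.subgroupOf P).Normal := (Subgroup.normal_subgroupOf_iff_le_normalizer hNP).mpr hPN
  rcases pResidual_le_or_inf_le_pCore H.minimal (S.subtype H.sylow_le) (N.subgroupOf P) with h | h
  · have h1 : X ≤ N := fun x ⟨w, hw, e⟩ => e ▸ h hw
    refine resIn_le_of_forall fun g hg hc => mem_of_coprime_of_mem_sup_of_le_normalizer
      H.isPGroup_R (Subgroup.normalizer_commutator_ge_right X R) hc (h1 (mem_resIn hg hc))
  · refine absurd (fun r hr => ?_) H.isolated
    exact ⟨⟨r, H.sylow_le (H.R_le_sylow hr)⟩, h ⟨H.R_le_sylow hr, Subgroup.mem_sup_right hr⟩, rfl⟩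

theorem res_not_isPGroup : ¬ IsPGroup p ↥(resIn p P) := by
  intro h
  have hle := S.is_maximal' (h.to_sup_of_normal_left' S.2 (H.sylow_le.trans (le_normalizer_resIn P)))
    le_sup_right
  have hPS : P ≤ (S : Subgroup G) := H.sup_sylow.ge.trans hle.le
  refine (H.minimal (S.subtype H.sylow_le)).1 ?_
  rw [show ((S.subtype H.sylow_le : Sylow p P) : Subgroup P) = ⊤ from top_le_iff.mp fun x _ => hPS x.2]
  infer_instance

theorem res_ne_bot : resIn p P ≠ ⊥ := fun h => H.res_not_isPGroup (h ▸ IsPGroup.of_bot)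

theorem res_le_of_le_sup {K : Subgroup G} (hSK : (S : Subgroup G) ≤ Subgroup.normalizer (K : Set G))
    (h : P ≤ K ⊔ (S : Subgroup G)) : resIn p P ≤ K := resIn_le_of_le_sup S.2 hSK h

/-- A subgroup normalised by `S` contains `O^p(P)` or lies in `L`. -/
theorem res_le_or_le {K : Subgroup G} (hSK : (S : Subgroup G) ≤ Subgroup.normalizer (K : Set G)) :
    resIn p P ≤ K ∨ K ≤ L := by
  by_cases h : P ≤ K ⊔ (S : Subgroup G)
  · exact Or.inl (H.res_le_of_le_sup hSK h)
  · exact Or.inr (le_sup_left.trans (H.le_of_not_le le_sup_right h))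

theorem sup_L_eq_top {Y : Subgroup G} (hY : resIn p P ≤ Y) : Y ⊔ L = ⊤ := by
  refine top_le_iff.mp (le_of_pMinimal_le S le_top (inf_le_left.trans (H.normalizer_le.trans le_sup_right))
    fun P' h1 _ h3 => ?_)
  by_cases e : P' = P
  · exact e ▸ H.sup_sylow ▸ sup_le_sup hY H.sylow_le_L
  · exact (H.other_le P' h1 h3 e).trans le_sup_right

section Quot

local notation "Q" => pCore p G

theorem Q_le_sylow : Q ≤ (S : Subgroup G) := by
  haveI : (Q).Normal := Constrained.instNormalPCore p
  have := S.is_maximal' ((Constrained.isPGroup_pCore).to_sup_of_normal_left S.2) le_sup_right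
  exact le_sup_left.trans this.le

local notation "f" => QuotientGroup.mk' (pCore p G)

theorem map_res_ne_bot : (resIn p P).map f ≠ ⊥ := fun h =>
  H.res_not_isPGroup (Constrained.isPGroup_pCore.to_le
    ((Subgroup.map_eq_bot_iff _).mp h |>.trans (QuotientGroup.ker_mk' _).le))

theorem map_commutator_res : ⁅(resIn p P).map f, (coreIn p L).map f⁆ = (resIn p P).map f := by
  rw [← Subgroup.map_commutator, H.commutator_res]

theorem L_le_normalizer_R : L.map f ≤ Subgroup.normalizer ((coreIn p L).map f : Set (G ⧸ pCore p G)) :=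
  (Subgroup.map_mono (le_normalizer_coreIn L)).trans (Subgroup.le_normalizer_map _)

theorem isPGroup_R_bar : IsPGroup p ↥((coreIn p L).map f) := H.isPGroup_R.map _

/-- A subnormal subgroup of the quotient inside `L` centralises `O_p(L)`. -/
theorem commutator_R_eq_bot {M : Subgroup (G ⧸ pCore p G)} (hsn : M.IsSubnormal) (hML : M ≤ L.map f)
    (hRM : (coreIn p L).map f ≤ Subgroup.normalizer (M : Set (G ⧸ pCore p G))) :
    ⁅M, (coreIn p L).map f⁆ = ⊥ := by
  set R := (coreIn p L).map f
  have hle : ⁅M, R⁆ ≤ M := Coprime.commutator_le_of_le_normalizer hRM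
  have hleR : ⁅M, R⁆ ≤ R := by
    rw [Subgroup.commutator_comm]
    exact Coprime.commutator_le_of_le_normalizer (hML.trans H.L_le_normalizer_R)
  haveI : (⁅M, R⁆.subgroupOf M).Normal := (Subgroup.normal_subgroupOf_iff_le_normalizer hle).mpr
    (Subgroup.normalizer_commutator_ge_left M R)
  have hsn' : (⁅M, R⁆ : Subgroup (G ⧸ pCore p G)).IsSubnormal :=
    Subgroup.IsSubnormal.trans hle (Subgroup.Normal.isSubnormal inferInstance) hsn
  have := le_pCore_of_isSubnormal hsn' (H.isPGroup_R_bar.to_le hleR)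
  rwa [Constrained.pCore_quotient_pCore, le_bot_iff] at this

/-- A normal subgroup of the quotient contains `O^p(P)` or lies in `L`. -/
theorem map_res_le_or {K : Subgroup (G ⧸ pCore p G)}
    (hSK : (S : Subgroup G).map f ≤ Subgroup.normalizer (K : Set (G ⧸ pCore p G))) :
    (resIn p P).map f ≤ K ∨ K ≤ L.map f := by
  have hs : Function.Surjective f := QuotientGroup.mk'_surjective _
  rcases H.res_le_or_le (K := K.comap f) ((Subgroup.le_comap_map f _).trans
    ((Subgroup.comap_mono hSK).trans (Subgroup.le_normalizer_comap f))) with h | h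
  · exact Or.inl (Subgroup.map_le_iff_le_comap.mpr h)
  · exact Or.inr ((Subgroup.map_comap_eq_self_of_surjective hs K).ge.trans (Subgroup.map_mono h))

variable {Y : Subgroup G} (hY : Y = Subgroup.normalClosure (resIn p P : Set G))
include hY

theorem Y_normal : Y.Normal := hY ▸ Subgroup.normalClosure_normal

theorem res_le_Y : resIn p P ≤ Y := hY ▸ Subgroup.le_normalClosure

theorem Ybar_normal : (Y.map f).Normal := (H.Y_normal hY).map _ (QuotientGroup.mk'_surjective _)

theorem Ybar_ne_bot : Y.map f ≠ ⊥ := fun h =>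
  H.map_res_ne_bot (le_bot_iff.mp (h ▸ Subgroup.map_mono (H.res_le_Y hY)))

theorem Ybar_le {N : Subgroup (G ⧸ pCore p G)} [N.Normal] (h : (resIn p P).map f ≤ N) : Y.map f ≤ N :=
  Subgroup.map_le_iff_le_comap.mpr (normal_le_of_normalClosure hY (Subgroup.map_le_iff_le_comap.mp h))

/-- A normal subgroup centralising `O_p(L)` centralises `Y`. -/
theorem Ybar_le_centralizer {M : Subgroup (G ⧸ pCore p G)} [M.Normal]
    (h : ⁅M, (coreIn p L).map f⁆ = ⊥) : Y.map f ≤ Subgroup.centralizer (M : Set (G ⧸ pCore p G)) := by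
  haveI : (Subgroup.centralizer (M : Set (G ⧸ pCore p G))).Normal := Subgroup.normal_centralizer
  refine H.Ybar_le hY ?_
  rw [← H.map_commutator_res]
  exact (Subgroup.commutator_mono le_rfl (le_centralizer_commutator_bot.mp h)).trans
    (Subgroup.commutator_le_right _ _)

/-- A normal subgroup of the quotient contains `Y` or is centralised by it. -/
theorem normal_dichotomy (M : Subgroup (G ⧸ pCore p G)) [hM : M.Normal] :
    Y.map f ≤ M ∨ ⁅M, Y.map f⁆ = ⊥ := by
  rcases H.map_res_le_or (K := M) ((Subgroup.normalizer_eq_top_iff.mpr hM).symm ▸ le_top) with h | h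
  · exact Or.inl (H.Ybar_le hY h)
  · exact Or.inr (le_centralizer_commutator_bot.mpr (H.Ybar_le_centralizer hY
      (H.commutator_R_eq_bot hM.isSubnormal h ((Subgroup.normalizer_eq_top_iff.mpr hM).symm ▸ le_top))))

/-- `Y` is perfect or nilpotent of class at most two modulo `O_p(G)`. -/
theorem perfect_or_class_two :
    ⁅Y.map f, Y.map f⁆ = Y.map f ∨ ⁅⁅Y.map f, Y.map f⁆, Y.map f⁆ = ⊥ := by
  haveI := H.Ybar_normal hY
  rcases H.normal_dichotomy hY ⁅Y.map f, Y.map f⁆ with h | h
  · exact Or.inl (le_antisymm (Subgroup.commutator_le_self _) h)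
  · exact Or.inr h

omit H in
theorem isNilpotent_of_class_two {A : Subgroup (G ⧸ pCore p G)} (h : ⁅⁅A, A⁆, A⁆ = ⊥) :
    Group.IsNilpotent ↥A ∧ (⊤ : Subgroup ↥A).lowerCentralSeries 2 = ⊥ := by
  have h2 : (⊤ : Subgroup ↥A).lowerCentralSeries 2 = ⊥ := by
    refine Subgroup.map_injective A.subtype_injective ?_
    rw [Subgroup.lowerCentralSeries_succ, Subgroup.lowerCentralSeries_succ, Subgroup.lowerCentralSeries_zero,
      Subgroup.map_bot, Subgroup.map_commutator, Subgroup.map_commutator, ← MonoidHom.range_eq_map,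
      Subgroup.range_subtype, h]
  exact ⟨Subgroup.nilpotent_iff_lowerCentralSeries.mpr ⟨2, h2⟩, h2⟩

/-- `Y` lies in the preimage of `F*(G / O_p(G))`. -/
theorem Ybar_le_generalizedFitting : Y.map f ≤ generalizedFittingSubgroup (G ⧸ pCore p G) := by
  haveI := H.Ybar_normal hY
  rcases H.perfect_or_class_two hY with hperf | hnil
  · set V := Y.map f
    set F := generalizedFittingSubgroup (G ⧸ pCore p G)
    haveI : F.Normal := inferInstance
    rcases H.normal_dichotomy hY (F ⊓ V) with h | h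
    · exact h.trans inf_le_left
    have h1 : ⁅⁅V, F⁆, V⁆ = ⊥ := by
      refine le_bot_iff.mp ((Subgroup.commutator_mono ?_ le_rfl).trans h.le)
      exact le_inf (Subgroup.commutator_le_right _ _) (Subgroup.commutator_le_left _ _)
    have h2 : ⁅⁅V, V⁆, F⁆ = ⊥ := Subgroup.commutator_commutator_eq_bot_of_rotate h1
      (by rwa [Subgroup.commutator_comm F V])
    rw [hperf] at h2
    exact (Subgroup.commutator_eq_bot_iff_le_centralizer.mp h2).trans centralizer_generalizedFitting_le
  · exact le_trans (le_sSup (show Y.map f ∈ {N : Subgroup (G ⧸ pCore p G) | N.Normal ∧ Group.IsNilpotent N}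
        from ⟨inferInstance, (isNilpotent_of_class_two hY hnil).1⟩))
      fitting_le_generalizedFitting

omit H in
/-- A normal nilpotent subgroup of a group with trivial `p`-core has order prime to `p`. -/
theorem not_dvd_of_isNilpotent {A : Subgroup (G ⧸ pCore p G)} [A.Normal] (hA : Group.IsNilpotent ↥A) :
    ¬ p ∣ Nat.card ↥A := by
  intro hdvd
  let T : Sylow p ↥A := Classical.arbitrary _
  have hTn : (T : Subgroup ↥A).Normal := Sylow.normal_of_normalizerCondition
    Group.normalizerCondition_of_isNilpotent T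
  haveI : (T : Subgroup ↥A).Characteristic := T.characteristic_of_normal hTn
  have hle : (T : Subgroup ↥A).map A.subtype ≤ pCore p (G ⧸ pCore p G) :=
    Constrained.le_pCore ConjAct.normal_of_characteristic_of_normal (T.isPGroup'.map _)
  rw [Constrained.pCore_quotient_pCore, le_bot_iff, Subgroup.map_eq_bot_iff_of_injective _ A.subtype_injective] at hle
  exact T.ne_bot_of_dvd_card hdvd hle

include H in
theorem not_dvd_of_not_perfect (hne : ⁅Y.map f, Y.map f⁆ ≠ Y.map f) : ¬ p ∣ Nat.card ↥(Y.map f) := by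
  haveI := H.Ybar_normal hY
  exact not_dvd_of_isNilpotent hY (isNilpotent_of_class_two hY ((H.perfect_or_class_two hY).resolve_left hne)).1

/-- The invariant Sylow subgroups moved by `O_p(L)` contain `O^p(P)`. -/
theorem sylow_centralized_or (hp' : ¬ p ∣ Nat.card ↥(Y.map f)) (r : ℕ) [Fact r.Prime] :
    ∃ U : Sylow r ↥(Y.map f),
      (S : Subgroup G).map f ≤ Subgroup.normalizer
        ((U : Subgroup ↥(Y.map f)).map (Y.map f).subtype : Set (G ⧸ pCore p G)) ∧
      ((resIn p P).map f ≤ (U : Subgroup ↥(Y.map f)).map (Y.map f).subtype ∨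
        (U : Subgroup ↥(Y.map f)).map (Y.map f).subtype ≤
          Subgroup.centralizer ((coreIn p L).map f : Set (G ⧸ pCore p G))) := by
  have hVn := H.Ybar_normal hY
  set V := Y.map f
  set R := (coreIn p L).map f
  have hcop : ∀ A : Subgroup (G ⧸ pCore p G), IsPGroup p ↥A → (Nat.card A).Coprime (Nat.card V) := by
    intro A hA
    obtain ⟨i, hi⟩ := IsPGroup.iff_card.mp hA
    exact hi ▸ ((Nat.Prime.coprime_iff_not_dvd hp.out).mpr hp').pow_left i
  have hSbp : IsPGroup p ↥((S : Subgroup G).map f) := S.isPGroup'.map _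
  obtain ⟨U, hU⟩ := Coprime.exists_invariant_sylow (p := r) (G := V) (A := (S : Subgroup G).map f)
    ((Subgroup.normalizer_eq_top_iff.mpr hVn).symm ▸ le_top) (hcop _ hSbp)
    (Or.inl (Coprime.isSolvable_of_isPGroup hSbp))
  refine ⟨U, hU, ?_⟩
  rcases H.map_res_le_or hU with h | h
  · exact Or.inl h
  refine Or.inr (Subgroup.commutator_eq_bot_iff_le_centralizer.mp (le_bot_iff.mp ?_))
  have hRU : R ≤ Subgroup.normalizer ((U : Subgroup ↥V).map V.subtype : Set (G ⧸ pCore p G)) :=
    (Subgroup.map_mono H.R_le_sylow).trans hU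
  refine (le_inf ((Coprime.commutator_le_of_le_normalizer hRU).trans (Subgroup.map_subtype_le _)) ?_).trans
    (disjoint_iff.mp (Subgroup.disjoint_of_coprime_natCard (hcop R H.isPGroup_R_bar).symm)).le
  rw [Subgroup.commutator_comm]
  exact Coprime.commutator_le_of_le_normalizer (h.trans H.L_le_normalizer_R)

/-- For a `p'`-group modulo `O_p(G)`, the normal closure is `O^p(P)`, a `t`-group modulo `O_p(G)`. -/
theorem eq_res_of_not_dvd (hp' : ¬ p ∣ Nat.card ↥(Y.map f)) :
    resIn p P = Y ∧ ∃ t : ℕ, t.Prime ∧ t ≠ p ∧ IsPGroup t ↥(Y.map f) := by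
  haveI hVn := H.Ybar_normal hY
  set V := Y.map f with hV
  set R := (coreIn p L).map f with hR
  set X := (resIn p P).map f with hX
  obtain ⟨t, ht, U, hUS, hXU, hother⟩ : ∃ (t : ℕ) (_ : Fact t.Prime) (U : Sylow t ↥V),
      (S : Subgroup G).map f ≤ Subgroup.normalizer ((U : Subgroup ↥V).map V.subtype : Set (G ⧸ pCore p G)) ∧
      X ≤ (U : Subgroup ↥V).map V.subtype ∧
      ∀ r : ℕ, r.Prime → r ≠ t → ∃ W : Sylow r ↥V,
        (W : Subgroup ↥V).map V.subtype ≤ Subgroup.centralizer (R : Set (G ⧸ pCore p G)) := by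
    by_cases h : ∀ r : ℕ, r.Prime → ∃ W : Sylow r ↥V,
        (W : Subgroup ↥V).map V.subtype ≤ Subgroup.centralizer (R : Set (G ⧸ pCore p G))
    · exfalso
      obtain ⟨r, hr, hrdvd⟩ := Nat.exists_prime_and_dvd
        (fun hc => H.Ybar_ne_bot hY (Subgroup.card_eq_one.mp hc))
      haveI : Fact r.Prime := ⟨hr⟩
      obtain ⟨W, hW⟩ := h r hr
      have h1 : ⁅V, R⁆ ≤ ⊥ := (commutator_le_commutator_sylow W fun q hq _ => h q hq).trans
        (Subgroup.commutator_eq_bot_iff_le_centralizer.mpr hW).le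
      apply H.map_res_ne_bot
      rw [← H.map_commutator_res]
      exact le_bot_iff.mp ((Subgroup.commutator_mono (Subgroup.map_mono (H.res_le_Y hY)) le_rfl).trans h1)
    push Not at h
    obtain ⟨t, ht, hno⟩ := h
    haveI : Fact t.Prime := ⟨ht⟩
    obtain ⟨U, hUS, hU⟩ := H.sylow_centralized_or hY hp' t
    have hXU := hU.resolve_right (hno U)
    refine ⟨t, ⟨ht⟩, U, hUS, hXU, fun r hr hne => ?_⟩
    haveI : Fact r.Prime := ⟨hr⟩
    obtain ⟨W, -, hW⟩ := H.sylow_centralized_or hY hp' r
    refine ⟨W, hW.resolve_left fun hXW => H.map_res_ne_bot (le_bot_iff.mp ?_)⟩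
    exact (le_inf hXU hXW).trans (disjoint_iff.mp (IsPGroup.disjoint_of_ne t r hne.symm _ _
      (U.isPGroup'.map _) (W.isPGroup'.map _))).le
  set U₀ := (U : Subgroup ↥V).map V.subtype with hU₀
  have htp : t ≠ p := by
    rintro rfl
    have hXp : IsPGroup t ↥X := (U.isPGroup'.map _).to_le hXU
    have : Nat.card ↥X = 1 := by
      obtain ⟨i, hi⟩ := IsPGroup.iff_card.mp hXp
      by_contra hne
      exact hp' ((dvd_pow_self t (by rintro rfl; exact hne (by rw [hi, pow_zero]))).trans
        (hi ▸ Subgroup.card_dvd_of_le (Subgroup.map_mono (H.res_le_Y hY))))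
    exact H.map_res_ne_bot (Subgroup.card_eq_one.mp this)
  have hRU : R ≤ Subgroup.normalizer (U₀ : Set (G ⧸ pCore p G)) := (Subgroup.map_mono H.R_le_sylow).trans hUS
  -- `[U, R] = O^p(P)`
  set W := ⁅U₀, R⁆ with hW
  have hWU : W ≤ U₀ := Coprime.commutator_le_of_le_normalizer hRU
  have hXW : X ≤ W := H.map_commutator_res.ge.trans (Subgroup.commutator_mono hXU le_rfl)
  have hSbp : IsPGroup p ↥((S : Subgroup G).map f) := S.isPGroup'.map _
  have hSR : (S : Subgroup G).map f ≤ Subgroup.normalizer (R : Set (G ⧸ pCore p G)) :=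
    (Subgroup.map_mono H.sylow_le_L).trans H.L_le_normalizer_R
  have hSX : (S : Subgroup G).map f ≤ Subgroup.normalizer (X : Set (G ⧸ pCore p G)) :=
    (Subgroup.map_mono (H.sylow_le.trans (le_normalizer_resIn P))).trans (Subgroup.le_normalizer_map _)
  have hSW : (S : Subgroup G).map f ≤ Subgroup.normalizer (W : Set (G ⧸ pCore p G)) :=
    le_normalizer_commutator hUS hSR
  have hWV : W ≤ V := hWU.trans (Subgroup.map_subtype_le _)
  have hcopRU : (Nat.card R).Coprime (Nat.card U₀) := by
    obtain ⟨i, hi⟩ := IsPGroup.iff_card.mp (H.isPGroup_R_bar)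
    obtain ⟨j, hj⟩ := IsPGroup.iff_card.mp (U.isPGroup'.map V.subtype)
    exact hi ▸ hj ▸ ((Nat.coprime_primes hp.out ht.out).mpr htp.symm).pow i j
  have hWR : ⁅W, R⁆ = W := Coprime.commutator_commutator_eq hRU hcopRU
    (Or.inl (Coprime.isSolvable_of_isPGroup H.isPGroup_R_bar))
  set K := X ⊔ (W ⊓ Subgroup.centralizer (R : Set (G ⧸ pCore p G))) with hK
  have hSK : (S : Subgroup G).map f ≤ Subgroup.normalizer (K : Set (G ⧸ pCore p G)) :=
    le_normalizer_sup hSX (le_normalizer_inf hSW (Coprime.le_normalizer_centralizer hSR))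
  have hWK : W ≤ K := by
    have hgen : (W ⊔ (S : Subgroup G).map f).comap f ≤ (K ⊔ (S : Subgroup G).map f).comap f := by
      have hLcase : L ⊓ (W ⊔ (S : Subgroup G).map f).comap f ≤ (K ⊔ (S : Subgroup G).map f).comap f := by
        rintro g ⟨hgL, hgW⟩
        replace hgW : f g ∈ W ⊔ (S : Subgroup G).map f := hgW
        rw [← SetLike.mem_coe,
          Subgroup.coe_mul_of_right_le_normalizer_left _ _ hSW] at hgW
        obtain ⟨w, hw, s, hs, hws : w * s = f g⟩ := hgW
        have hwL : w ∈ L.map f := by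
          rw [show w = f g * s⁻¹ from eq_mul_inv_of_mul_eq hws]
          exact mul_mem ⟨g, hgL, rfl⟩ (inv_mem (Subgroup.map_mono H.sylow_le_L hs))
        have hwC : w ∈ Subgroup.centralizer (R : Set (G ⧸ pCore p G)) := by
          refine Subgroup.mem_centralizer_iff.mpr fun r hr => (commutatorElement_eq_one_iff_mul_comm.mp ?_)
          have h1 : ⁅r, w⁆ ∈ R ⊓ V := by
            constructor
            · rw [show ⁅r, w⁆ = r * (w * r⁻¹ * w⁻¹) by simp [commutatorElement_def, mul_assoc]]
              exact R.mul_mem hr (Coprime.conj_mem_of_le_normalizer H.L_le_normalizer_R hwL (R.inv_mem hr))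
            · rw [show ⁅r, w⁆ = r * w * r⁻¹ * w⁻¹ from rfl]
              exact V.mul_mem (hVn.conj_mem _ (hWV hw) _) (V.inv_mem (hWV hw))
          obtain ⟨i, hi⟩ := IsPGroup.iff_card.mp H.isPGroup_R_bar
          rw [disjoint_iff.mp (Subgroup.disjoint_of_coprime_natCard
            (hi ▸ ((Nat.Prime.coprime_iff_not_dvd hp.out).mpr hp').pow_left i))] at h1
          exact Subgroup.mem_bot.mp h1
        show f g ∈ K ⊔ _
        exact hws ▸ mul_mem (Subgroup.mem_sup_left (Subgroup.mem_sup_right ⟨hw, hwC⟩))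
          (Subgroup.mem_sup_right hs)
      refine le_of_pMinimal_le S ((Subgroup.le_comap_map f _).trans (Subgroup.comap_mono le_sup_right))
        (fun g hg => hLcase ⟨H.normalizer_le hg.1, hg.2⟩) fun P' h1 h2 h3 => ?_
      by_cases e : P' = P
      · rw [e, ← H.sup_sylow, ← Subgroup.map_le_iff_le_comap, Subgroup.map_sup]
        exact sup_le_sup le_sup_left le_rfl
      · exact fun g hg => hLcase ⟨H.other_le P' h1 h3 e hg, h2 hg⟩
    intro w hw
    obtain ⟨g, rfl⟩ := QuotientGroup.mk'_surjective _ w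
    have hwK : f g ∈ K ⊔ (S : Subgroup G).map f := hgen (Subgroup.mem_comap.mpr (Subgroup.mem_sup_left hw))
    refine mem_of_coprime_of_mem_sup_of_le_normalizer hSbp hSK ?_ hwK
    exact (((Nat.Prime.coprime_iff_not_dvd hp.out).mpr hp').symm).coprime_dvd_left
      (Subgroup.orderOf_dvd_natCard _ (hWV hw))
  have hWX : W = X := eq_of_le_sup_centralizer ((U.isPGroup'.map _).to_le hWU) hXW hWR
    ((Subgroup.map_mono H.R_le_sylow).trans hSX) hWK
  have hVR : ⁅V, R⁆ = X := by
    refine le_antisymm ((commutator_le_commutator_sylow U hother).trans hWX.le) ?_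
    exact H.map_commutator_res.ge.trans (Subgroup.commutator_mono (Subgroup.map_mono (H.res_le_Y hY)) le_rfl)
  haveI hXn : X.Normal := Subgroup.normalizer_eq_top_iff.mp (top_le_iff.mp (by
    have htop : V ⊔ L.map f = ⊤ := by
      rw [hV, ← Subgroup.map_sup, H.sup_L_eq_top (H.res_le_Y hY),
        Subgroup.map_top_of_surjective _ (QuotientGroup.mk'_surjective _)]
    rw [← htop, ← hVR]
    exact sup_le (Subgroup.normalizer_commutator_ge_left _ _) (le_normalizer_commutator
      ((Subgroup.normalizer_eq_top_iff.mpr hVn).symm ▸ le_top) H.L_le_normalizer_R)))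
  have hVX : V = X := le_antisymm (H.Ybar_le hY le_rfl) (Subgroup.map_mono (H.res_le_Y hY))
  refine ⟨le_antisymm (H.res_le_Y hY) ?_, t, ht.out, htp,
    (U.isPGroup'.map _).to_le (hVX ▸ hXU)⟩
  have hYP : Y ≤ P := by
    have h1 : Y ≤ ((resIn p P).map f).comap f := Subgroup.map_le_iff_le_comap.mp hVX.le
    rw [Subgroup.comap_map_eq, QuotientGroup.ker_mk'] at h1
    exact h1.trans (sup_le (Subgroup.map_subtype_le _) (H.Q_le_sylow.trans H.sylow_le))
  have hmem : ∀ g ∈ Y, (orderOf g).Coprime p → g ∈ resIn p P := fun g hg => mem_resIn (hYP hg)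
  haveI : (resIn p P).Normal := ⟨fun x hx g => by
    have hle : resIn p P ≤ (resIn p P).comap (MulAut.conj g).toMonoidHom := resIn_le_of_forall fun u hu hc =>
      hmem _ ((H.Y_normal hY).conj_mem u (H.res_le_Y hY (mem_resIn hu hc)) g)
        (by rw [orderOf_injective _ (MulAut.conj g).injective]; exact hc)
    exact hle hx⟩
  exact normal_le_of_normalClosure hY le_rfl

/-- The components of the perfect case generate `Y` modulo `O_p(G)`. -/
theorem layerIn_eq (hperf : ⁅Y.map f, Y.map f⁆ = Y.map f) : layerIn (Y.map f) = Y.map f := by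
  haveI hVn := H.Ybar_normal hY
  set V := Y.map f
  have hle := le_layerIn_sup_fitting hVn.isSubnormal (H.Ybar_le_generalizedFitting hY)
  haveI hln : (layerIn V).Normal := by
    rw [← map_layer_of_isSubnormal hVn.isSubnormal]
    exact ConjAct.normal_of_characteristic_of_normal
  haveI : (fittingSubgroup (G ⧸ pCore p G) ⊓ V).Normal := inferInstance
  rcases H.normal_dichotomy hY (layerIn V) with h | h
  · exact le_antisymm (layerIn_le V) h
  rcases H.normal_dichotomy hY (fittingSubgroup (G ⧸ pCore p G) ⊓ V) with h' | h'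
  · exfalso
    refine H.Ybar_ne_bot hY ?_
    have hs : Group.IsSolvable ↥V := isSolvable_of_le (h'.trans inf_le_left) fittingSubgroup_isSolvable
    obtain ⟨n, hn⟩ := Group.isSolvable_def ↥V |>.mp hs
    have := le_map_derivedSeries le_rfl hperf n
    rwa [hn, Subgroup.map_bot, le_bot_iff] at this
  · refine absurd ?_ (H.Ybar_ne_bot hY)
    show V = ⊥
    rw [← hperf]
    exact le_bot_iff.mp ((Subgroup.commutator_mono hle le_rfl).trans
      (Subgroup.commutator_eq_bot_iff_le_centralizer.mpr (sup_le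
        (Subgroup.commutator_eq_bot_iff_le_centralizer.mp h)
        (Subgroup.commutator_eq_bot_iff_le_centralizer.mp h'))).le)

/-- `S` permutes the components transitively. -/
theorem component_transitive (hperf : ⁅Y.map f, Y.map f⁆ = Y.map f) {K₁ K₂ : Subgroup (G ⧸ pCore p G)}
    (h₁ : IsComponent K₁) (h₁V : K₁ ≤ Y.map f) (h₂ : IsComponent K₂) (h₂V : K₂ ≤ Y.map f) :
    ∃ s ∈ (S : Subgroup G), K₂ = K₁.map (MulAut.conj (f s)).toMonoidHom := by
  haveI hVn := H.Ybar_normal hY
  set V := Y.map f with hV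
  set R := (coreIn p L).map f with hR
  set X := (resIn p P).map f with hX
  -- no component is centralised by `R`
  have hnone : ∀ K : Subgroup (G ⧸ pCore p G), IsComponent K → K ≤ V → ⁅K, R⁆ ≠ ⊥ := by
    intro K hK hKV hKR
    set s₀ := {K' : Subgroup (G ⧸ pCore p G) | IsComponent K' ∧ K' ≤ V ∧ ⁅K', R⁆ = ⊥}
    set Y₀ := sSup s₀ with hY₀
    have hmap : ∀ g, (∀ K' ∈ s₀, K'.map (MulAut.conj g).toMonoidHom ∈ s₀) →
        ∀ x ∈ Y₀, g * x * g⁻¹ ∈ Y₀ := fun g hg x hx => by
      have : Y₀ ≤ Y₀.comap (MulAut.conj g).toMonoidHom := sSup_le fun K' hK' =>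
        Subgroup.map_le_iff_le_comap.mp (le_sSup (hg K' hK'))
      exact this hx
    haveI hY₀n : Y₀.Normal := Subgroup.normalizer_eq_top_iff.mp (top_le_iff.mp (by
      rw [show (⊤ : Subgroup (G ⧸ pCore p G)) = V ⊔ L.map f by
        rw [hV, ← Subgroup.map_sup, H.sup_L_eq_top (H.res_le_Y hY),
          Subgroup.map_top_of_surjective _ (QuotientGroup.mk'_surjective _)]]
      refine sup_le ?_ ?_
      · refine Coprime.le_normalizer_of_conj_mem fun v hv => hmap v fun K' hK' => ?_
        rwa [map_conj_fix (layer_le_normalizer hK'.1 ((H.layerIn_eq hY hperf).ge.trans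
          (layerIn_le_layer V) hv))]
      · refine Coprime.le_normalizer_of_conj_mem fun l hl => hmap l fun K' hK' =>
          ⟨isComponent_conj hK'.1 l, ?_, ?_⟩
        · rw [← map_conj_fix ((Subgroup.normalizer_eq_top_iff.mpr hVn).symm ▸ Subgroup.mem_top l :
            l ∈ Subgroup.normalizer (V : Set (G ⧸ pCore p G)))]
          exact Subgroup.map_mono hK'.2.1
        · rw [← map_conj_fix (V := R) (H.L_le_normalizer_R hl), ← Subgroup.map_commutator, hK'.2.2, Subgroup.map_bot]))
    have hY₀R : ⁅Y₀, R⁆ = ⊥ := le_centralizer_commutator_bot.mpr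
      (Subgroup.le_centralizer_iff.mp (sSup_le fun K' hK' =>
        Subgroup.commutator_eq_bot_iff_le_centralizer.mp hK'.2.2))
    refine not_commutator_self_eq_bot hK (le_bot_iff.mp ((Subgroup.commutator_mono
      (le_sSup (show K ∈ s₀ from ⟨hK, hKV, hKR⟩)) hKV).trans ?_))
    exact (le_centralizer_commutator_bot.mpr (H.Ybar_le_centralizer hY hY₀R)).le
  -- the product of an orbit
  let O : Subgroup (G ⧸ pCore p G) → Subgroup (G ⧸ pCore p G) := fun K =>
    ⨆ s : (S : Subgroup G), K.map (MulAut.conj (f (s : G))).toMonoidHom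
  have hOS : ∀ K, (S : Subgroup G).map f ≤ Subgroup.normalizer (O K : Set (G ⧸ pCore p G)) := by
    intro K
    refine le_normalizer_of_map_eq ?_
    rintro _ ⟨a, ha, rfl⟩
    refine le_antisymm ?_ (iSup_le fun s => ?_)
    · rw [Subgroup.map_iSup]
      refine iSup_le fun s => le_iSup_of_le (⟨a, ha⟩ * s) ?_
      rw [Coprime.map_conj_map_conj, ← map_mul]; exact le_rfl
    · rw [Subgroup.map_iSup]
      refine le_iSup_of_le (⟨a, ha⟩⁻¹ * s) ?_
      rw [Coprime.map_conj_map_conj, ← map_mul, Subgroup.coe_mul, Subgroup.coe_inv, mul_inv_cancel_left]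
  have hXO : ∀ K, IsComponent K → K ≤ V → X ≤ O K := by
    intro K hK hKV
    refine (H.map_res_le_or (hOS K)).resolve_right fun hL => hnone K hK hKV ?_
    have hsn : (O K).IsSubnormal := Subnormal.isSubnormal_iSup fun s => (isComponent_conj hK _).1
    have h0 := H.commutator_R_eq_bot hsn hL ((Subgroup.map_mono H.R_le_sylow).trans (hOS K))
    refine le_bot_iff.mp ((Subgroup.commutator_mono ?_ le_rfl).trans h0.le)
    exact le_iSup_of_le (1 : (S : Subgroup G)) (by rw [Subgroup.coe_one, map_one, Coprime.map_conj_one])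
  by_contra hne
  push Not at hne
  have hXc : ∀ K, IsComponent K → K ≤ V → ⁅K, X⁆ = ⊥ := by
    intro K hK hKV
    have key : ∀ K' : Subgroup (G ⧸ pCore p G), IsComponent K' → K' ≤ V →
        (∀ s ∈ (S : Subgroup G), K ≠ K'.map (MulAut.conj (f s)).toMonoidHom) → ⁅K, X⁆ = ⊥ := by
      intro K' hK' hK'V hd
      refine le_centralizer_commutator_bot.mpr ((hXO K' hK' hK'V).trans (iSup_le fun s => ?_))
      exact le_centralizer_commutator_bot.mp (commutator_eq_bot_of_ne hK (isComponent_conj hK' _) (hd s s.2))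
    by_cases hex : ∀ s ∈ (S : Subgroup G), K ≠ K₁.map (MulAut.conj (f s)).toMonoidHom
    · exact key K₁ h₁ h₁V hex
    push Not at hex
    obtain ⟨a, ha, rfl⟩ := hex
    refine key K₂ h₂ h₂V fun s hs e => hne (s⁻¹ * a) (mul_mem (inv_mem hs) ha) ?_
    have e2 := congrArg (fun W : Subgroup (G ⧸ pCore p G) => W.map (MulAut.conj (f s⁻¹)).toMonoidHom) e
    simp only [Coprime.map_conj_map_conj] at e2
    rw [map_inv, inv_mul_cancel, Coprime.map_conj_one] at e2
    rw [← e2, ← map_inv, ← map_mul]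
  haveI : (Subgroup.centralizer (V : Set (G ⧸ pCore p G))).Normal := Subgroup.normal_centralizer
  refine H.Ybar_ne_bot hY ?_
  show V = ⊥
  rw [← hperf]
  refine Subgroup.commutator_eq_bot_iff_le_centralizer.mpr (H.Ybar_le hY ?_)
  refine Subgroup.le_centralizer_iff.mp ?_
  refine (H.layerIn_eq hY hperf).ge.trans ?_
  exact sSup_le fun K hK => Subgroup.commutator_eq_bot_iff_le_centralizer.mp (hXc K hK.1 hK.2)

end Quot

end IsolatedPair

theorem isolatedPair_of_eq {S : Sylow p G} {P L : Subgroup G} (hSP : (S : Subgroup G) ≤ P)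
    (hP : IsPMinimal p ↥P)
    (hL : L = Subgroup.normalizer ((S : Subgroup G) : Set G) ⊔ ⨆ P' : {P' : Subgroup G //
      (S : Subgroup G) ≤ P' ∧ IsPMinimal p ↥P' ∧ P' ≠ P}, (P' : Subgroup G))
    (hiso : ¬ coreIn p L ≤ coreIn p P) : IsolatedPair S P L :=
  ⟨hSP, hP, hL ▸ le_sup_left, fun P' h1 h2 h3 => hL ▸ le_sup_of_le_right
    (le_iSup (fun P' : {P' : Subgroup G // (S : Subgroup G) ≤ P' ∧ IsPMinimal p ↥P' ∧ P' ≠ P} =>
      (P' : Subgroup G)) ⟨P', h1, h2, h3⟩), hiso⟩

/-- `Y / O_p(Y)` as a subgroup of `G / O_p(G)` for normal `Y`. -/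
theorem exists_quotient_core_hom (Y : Subgroup G) (hY : Y.Normal) :
    ∃ φ : ↥Y ⧸ pCore p ↥Y →* G ⧸ pCore p G, Function.Injective φ ∧
      φ.range = Y.map (QuotientGroup.mk' (pCore p G)) ∧
      ∀ y : ↥Y, φ (QuotientGroup.mk' (pCore p ↥Y) y) = QuotientGroup.mk' (pCore p G) (y : G) := by
  have hker : pCore p ↥Y = (pCore p G).subgroupOf Y := by
    refine le_antisymm (fun y hy => map_pCore_subnormal_le hY.isSubnormal ⟨y, hy, rfl⟩)
      (Constrained.le_pCore inferInstance ?_)
    exact (Constrained.isPGroup_pCore (G := G) (p := p)).comap_subtype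
  set g := (QuotientGroup.mk' (pCore p G)).comp Y.subtype with hg
  have hgk : g.ker = pCore p ↥Y := by
    rw [hker, hg, ← MonoidHom.comap_ker, QuotientGroup.ker_mk']; rfl
  refine ⟨QuotientGroup.lift _ g hgk.ge, ?_, ?_, fun y => rfl⟩
  · rw [← MonoidHom.ker_eq_bot_iff, eq_bot_iff]
    intro q hq
    obtain ⟨y, rfl⟩ := QuotientGroup.mk'_surjective _ q
    exact Subgroup.mem_bot.mpr ((QuotientGroup.eq_one_iff y).mpr (hgk ▸ (hq : g y = 1)))
  · rw [show Y.map (QuotientGroup.mk' (pCore p G)) = g.range by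
      rw [hg, MonoidHom.range_comp, Subgroup.range_subtype]]
    ext x
    constructor
    · rintro ⟨q, rfl⟩
      obtain ⟨y, rfl⟩ := QuotientGroup.mk'_surjective _ q
      exact ⟨y, rfl⟩
    · rintro ⟨y, rfl⟩
      exact ⟨QuotientGroup.mk' _ y, rfl⟩

end CfsgLib.Cores
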