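import Cfsg.Agent.Cores.Local
import Cfsg.Agent.Signalizer.LocalBalance

/-!
The `p`-layer of a `p`-local subgroup fixes every component of a group with trivial `p'`-core.
-/

set_option autoImplicit false

open Cfsg
open scoped commutatorElement Pointwise

namespace CfsgLib.Cores

variable {G : Type*} [Group G]

theorem normalizer_le_normalizer_centralizer (H : Subgroup G) :
    Subgroup.normalizer (H : Set G) ≤ Subgroup.normalizer (Subgroup.centralizer (H : Set G) : Set G) := by
  have key : ∀ g ∈ Subgroup.normalizer (H : Set G), ∀ c ∈ Subgroup.centralizer (H : Set G),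
      g * c * g⁻¹ ∈ Subgroup.centralizer (H : Set G) := by
    intro g hg c hc
    refine Subgroup.mem_centralizer_iff.mpr fun h hh => ?_
    have h1 : g⁻¹ * h * g ∈ H := by
      simpa using (Subgroup.mem_normalizer_iff.mp (inv_mem hg) h).mp hh
    have h2 := Subgroup.mem_centralizer_iff.mp hc _ h1
    calc h * (g * c * g⁻¹) = g * ((g⁻¹ * h * g) * c) * g⁻¹ := by group
      _ = g * (c * (g⁻¹ * h * g)) * g⁻¹ := by rw [h2]
      _ = g * c * g⁻¹ * h := by group
  intro g hg
  refine Subgroup.mem_normalizer_iff.mpr fun c => ⟨key g hg c, fun hc => ?_⟩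
  simpa [mul_assoc] using key g⁻¹ (inv_mem hg) _ hc

theorem normal_subgroupOf_of_le_normalizer' {S R : Subgroup G}
    (h : S ≤ Subgroup.normalizer (R : Set G)) : (R.subgroupOf S).Normal := by
  refine ⟨fun n hn g => ?_⟩
  rw [Subgroup.mem_subgroupOf] at hn ⊢
  exact (Subgroup.mem_normalizer_iff.mp (h g.2) (n : G)).mp hn

theorem normalizer_le_normalizer_pPrimeCore' (C : Subgroup G) (p : ℕ) :
    Subgroup.normalizer (C : Set G) ≤
      Subgroup.normalizer ((pPrimeCore p ↥C).map C.subtype : Set G) := by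
  have hpres : ∀ y ∈ Subgroup.normalizer (C : Set G), ∀ w ∈ (pPrimeCore p ↥C).map C.subtype,
      y * w * y⁻¹ ∈ (pPrimeCore p ↥C).map C.subtype := by
    rintro y hy _ ⟨w, hw, rfl⟩
    let e : ↥C ≃* ↥C := C.normalizerMonoidHom ⟨y, hy⟩
    refine ⟨e w, ?_, rfl⟩
    rw [← Constrained.pPrimeCore_map e p]
    exact ⟨w, hw, rfl⟩
  intro x hx
  refine Subgroup.mem_normalizer_iff.mpr fun w => ⟨hpres x hx w, fun hw => ?_⟩
  simpa [mul_assoc] using hpres x⁻¹ (inv_mem hx) _ hw

/-- In a nilpotent group, a normal subgroup outside the normal subgroup `Z` has an element outside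
`Z` which is central modulo `Z`. -/
theorem exists_fixed_mod [Group.IsNilpotent G] {R Z : Subgroup G} [R.Normal] (h : ¬ R ≤ Z) :
    ∃ e ∈ R, e ∉ Z ∧ ∀ s : G, ⁅e, s⁆ ∈ Z := by
  by_contra! hall
  obtain ⟨c, hc⟩ := Subgroup.nilpotent_iff_lowerCentralSeries.mp ‹Group.IsNilpotent G›
  have : ∀ n, ∃ x, x ∈ Subgroup.lowerCentralSeries (⊤ : Subgroup G) n ∧ x ∈ R ∧ x ∉ Z := by
    intro n
    induction n with
    | zero =>
      obtain ⟨x, hx, hxZ⟩ := SetLike.not_le_iff_exists.mp h
      exact ⟨x, by simp, hx, hxZ⟩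
    | succ n ih =>
      obtain ⟨x, hxn, hxR, hxZ⟩ := ih
      obtain ⟨s, hs⟩ := hall x hxR hxZ
      refine ⟨⁅x, s⁆, ?_, ?_, hs⟩
      · rw [Subgroup.lowerCentralSeries_succ]
        exact Subgroup.commutator_mem_commutator hxn (Subgroup.mem_top s)
      · rw [commutatorElement_def, mul_assoc, mul_assoc, ← mul_assoc s]
        exact mul_mem hxR (Subgroup.Normal.conj_mem inferInstance _ (inv_mem hxR) s)
  obtain ⟨x, hx, -, hxZ⟩ := this c
  rw [hc, Subgroup.mem_bot] at hx
  exact hxZ (by rw [hx]; exact one_mem _)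

variable [Finite G] {p : ℕ} [Fact p.Prime]

/-- A `p`-element of the layer which is central modulo `O_p(G)` in the group generated by the
`P`-orbit of the component `L` and `P`. -/
theorem exists_orbit_element (hO : pPrimeCore p G = ⊥) {P : Subgroup G} (hP : IsPGroup p ↥P)
    {L : Subgroup G} (hL : IsComponent L) :
    ∃ e ∈ layer G, (∃ k : ℕ, e ^ p ^ k = 1) ∧ (∀ g ∈ P, ⁅e, g⁆ ∈ pCore p G) ∧
      (¬ ∀ k ∈ L, e * k = k * e) ∧
      ∀ M : Subgroup G, IsComponent M → (∀ g ∈ P, L.map (MulAut.conj g).toMonoidHom ≠ M) →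
        ∀ k ∈ M, e * k = k * e := by
  set EO : Subgroup G := ⨆ g : ↥P, L.map (MulAut.conj (g : G)).toMonoidHom with hEO
  have hmem : ∀ g ∈ P, L.map (MulAut.conj g).toMonoidHom ≤ EO := fun g hg =>
    le_iSup (fun g : ↥P => L.map (MulAut.conj (g : G)).toMonoidHom) ⟨g, hg⟩
  have hLE : L ≤ EO := fun x hx => hmem 1 (one_mem P) ⟨x, hx, by simp⟩
  have hEOlayer : EO ≤ layer G := iSup_le fun g => le_layer (isComponent_conj hL _)
  have hPn : P ≤ Subgroup.normalizer (EO : Set G) := by
    have key : ∀ h ∈ P, EO.map (MulAut.conj h).toMonoidHom ≤ EO := by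
      intro h hh
      rw [hEO, Subgroup.map_iSup]
      refine iSup_le fun g => ?_
      rw [Subgroup.map_map]
      have e : (MulAut.conj h).toMonoidHom.comp (MulAut.conj (g : G)).toMonoidHom =
          (MulAut.conj (h * g)).toMonoidHom := by
        ext z; simp [mul_assoc]
      rw [e]
      exact hmem _ (mul_mem hh g.2)
    intro h hh
    refine Subgroup.mem_normalizer_iff.mpr fun x => ⟨fun hx => key h hh ⟨x, hx, rfl⟩, fun hx => ?_⟩
    have := key h⁻¹ (inv_mem hh) ⟨_, hx, rfl⟩
    simpa [mul_assoc] using this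
  set M0 := EO ⊔ P with hM0
  have hM0n : M0 ≤ Subgroup.normalizer (EO : Set G) := sup_le Subgroup.le_normalizer hPn
  obtain ⟨S0, hS0⟩ := (hP.comap_of_injective M0.subtype M0.subtype_injective).exists_le_sylow
  set S := (S0 : Subgroup ↥M0).map M0.subtype with hS
  have hPS : P ≤ S := fun g hg =>
    ⟨⟨g, Subgroup.mem_sup_right hg⟩, hS0 (Subgroup.mem_comap.mpr hg), rfl⟩
  have hSM : S ≤ M0 := Subgroup.map_subtype_le _
  have hSp : IsPGroup p ↥S := S0.isPGroup'.map _
  have hLn : EO ≤ Subgroup.normalizer (L : Set G) := hEOlayer.trans (layer_le_normalizer hL)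
  -- `S ∩ EO` does not centralise `L`
  have hnc : ¬ EO ⊓ S ≤ Subgroup.centralizer (L : Set G) := by
    intro hle
    have hall : pGen p L ≤ Subgroup.centralizer (L : Set G) := by
      refine (Subgroup.closure_le _).mpr ?_
      rintro z ⟨hzL, k, hzk⟩
      have hzM : z ∈ M0 := Subgroup.mem_sup_left (hLE hzL)
      have hzp : IsPGroup p ↥(Subgroup.zpowers (⟨z, hzM⟩ : ↥M0)) := fun y => ⟨k, by
        obtain ⟨y, hy⟩ := y
        obtain ⟨i, rfl⟩ := Subgroup.mem_zpowers_iff.mp hy
        apply Subtype.ext; apply Subtype.ext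
        show (z ^ i) ^ p ^ k = 1
        rw [← zpow_natCast, ← zpow_mul, mul_comm, zpow_mul, zpow_natCast, hzk, one_zpow]⟩
      obtain ⟨S', hS'⟩ := hzp.exists_le_sylow
      obtain ⟨m, hm⟩ := MulAction.exists_smul_eq ↥M0 S0 S'
      have hzS' : (⟨z, hzM⟩ : ↥M0) ∈ (S' : Subgroup ↥M0) := hS' (Subgroup.mem_zpowers _)
      rw [← hm, Sylow.coe_subgroup_smul, Subgroup.mem_smul_pointwise_iff_exists] at hzS'
      obtain ⟨s, hs, hms⟩ := hzS'
      have hms' : (m : G) * s * (m : G)⁻¹ = z := congrArg Subtype.val hms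
      obtain ⟨u, hu, g, hg, hug⟩ : (m : G) ∈ ((EO : Set G) * (P : Set G)) := by
        rw [← Subgroup.coe_mul_of_right_le_normalizer_left EO P hPn]
        exact m.2
      simp only [SetLike.mem_coe] at hu hg
      change u * g = (m : G) at hug
      have hs1 : g * s * g⁻¹ ∈ S := mul_mem (mul_mem (hPS hg) ⟨s, hs, rfl⟩) (inv_mem (hPS hg))
      have hz : z = u * (g * s * g⁻¹) * u⁻¹ := by rw [← hms', ← hug]; group
      have hs2 : g * s * g⁻¹ ∈ EO := by
        have : g * s * g⁻¹ = u⁻¹ * z * u := by rw [hz]; group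
        rw [this]
        exact mul_mem (mul_mem (inv_mem hu) (hLE hzL)) hu
      rw [hz]
      exact (Subgroup.mem_normalizer_iff.mp
        (normalizer_le_normalizer_centralizer L (hLn hu)) _).mp (hle ⟨hs2, hs1⟩)
    rw [pGen_eq_self_of_isQuasisimple hL.2 (dvd_card_of_isComponent hO hL),
      ← Subgroup.commutator_eq_bot_iff_le_centralizer] at hall
    exact not_commutator_self_eq_bot hL hall
  set Z := EO ⊓ Subgroup.centralizer (EO : Set G) with hZ
  have hZ' : Z ≤ pCore p G := by
    refine le_trans (le_trans (b := layer G ⊓ Subgroup.centralizer (layer G : Set G))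
      (le_inf (inf_le_left.trans hEOlayer) ?_) ?_) (LocalBalance.fitting_le_pCore hO)
    · intro z hz
      have hc : layer G ≤ Subgroup.centralizer ({z} : Set G) := by
        refine layer_le fun M hM => ?_
        by_cases hMo : ∃ g ∈ P, L.map (MulAut.conj g).toMonoidHom = M
        · obtain ⟨g, hg, rfl⟩ := hMo
          exact (hmem g hg).trans fun y hy => Subgroup.mem_centralizer_singleton_iff.mpr
            (Subgroup.mem_centralizer_iff.mp hz.2 y hy)
        · push Not at hMo
          have hle : EO ≤ Subgroup.centralizer (M : Set G) := iSup_le fun g => by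
            rw [← Subgroup.commutator_eq_bot_iff_le_centralizer]
            exact commutator_eq_bot_of_ne (isComponent_conj hL _) hM (hMo g g.2)
          exact fun y hy => Subgroup.mem_centralizer_singleton_iff.mpr
            (Subgroup.mem_centralizer_iff.mp (hle hz.1) y hy)
      exact Subgroup.mem_centralizer_iff.mpr fun y hy =>
        Subgroup.mem_centralizer_singleton_iff.mp (hc hy)
    · exact le_fittingSubgroup_of_isMulCommutative
        (inferInstance : (layer G ⊓ Subgroup.centralizer (layer G : Set G)).Normal)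
        ⟨⟨fun a b => Subtype.ext (Subgroup.mem_centralizer_iff.mp b.2.2 a a.2.1)⟩⟩
  haveI := hSp.isNilpotent
  haveI : (EO.subgroupOf S).Normal := normal_subgroupOf_of_le_normalizer' (hSM.trans hM0n)
  have hnle : ¬ EO.subgroupOf S ≤ Z.subgroupOf S := by
    intro h
    apply hnc
    rintro y ⟨hyE, hyS⟩
    exact Subgroup.centralizer_le hLE (h (show (⟨y, hyS⟩ : ↥S) ∈ EO.subgroupOf S from hyE)).2
  obtain ⟨e, heR, heZ, hes⟩ := exists_fixed_mod hnle
  have heEO : (e : G) ∈ EO := heR
  have hcom : ∀ g ∈ P, ⁅(e : G), g⁆ ∈ pCore p G := fun g hg => hZ' (hes ⟨g, hPS hg⟩)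
  refine ⟨(e : G), hEOlayer heEO, ?_, hcom, ?_, ?_⟩
  · obtain ⟨k, hk⟩ := hSp e
    exact ⟨k, by simpa using congrArg Subtype.val hk⟩
  · intro hcl
    refine heZ ⟨heEO, ?_⟩
    have hle : EO ≤ Subgroup.centralizer ({(e : G)} : Set G) := by
      refine iSup_le fun g => ?_
      rintro _ ⟨k, hk, rfl⟩
      refine Subgroup.mem_centralizer_singleton_iff.mpr ?_
      -- `g⁻¹ e g = e z` with `z` centralising `L`
      have hz : (e : G)⁻¹ * ((g : G)⁻¹ * e * g) ∈ pCore p G := by
        have h1 := (pCore_normal p G).conj_mem _ (hcom (g : G)⁻¹ (inv_mem g.2)) ((e : G)⁻¹)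
        rw [commutatorElement_def] at h1
        have h2 := inv_mem h1
        convert h2 using 1
        group
      have hzk : ((e : G)⁻¹ * ((g : G)⁻¹ * e * g)) * k = k * ((e : G)⁻¹ * ((g : G)⁻¹ * e * g)) :=
        commute_of_commutator_eq_bot commutator_layer_pCore hz (le_layer hL hk)
      show (g : G) * k * (g : G)⁻¹ * e = e * ((g : G) * k * (g : G)⁻¹)
      calc (g : G) * k * (g : G)⁻¹ * e
          = g * (k * e * ((e : G)⁻¹ * ((g : G)⁻¹ * e * g))) * (g : G)⁻¹ := by group
        _ = g * (e * (k * ((e : G)⁻¹ * ((g : G)⁻¹ * e * g)))) * (g : G)⁻¹ := by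
            rw [← hcl k hk, mul_assoc (e : G) k]
        _ = g * (e * (((e : G)⁻¹ * ((g : G)⁻¹ * e * g)) * k)) * (g : G)⁻¹ := by rw [hzk]
        _ = e * ((g : G) * k * (g : G)⁻¹) := by group
    exact Subgroup.mem_centralizer_iff.mpr fun y hy =>
      Subgroup.mem_centralizer_singleton_iff.mp (hle hy)
  · intro M hM hne k hk
    have hle : EO ≤ Subgroup.centralizer (M : Set G) := iSup_le fun g => by
      rw [← Subgroup.commutator_eq_bot_iff_le_centralizer]
      exact commutator_eq_bot_of_ne (isComponent_conj hL _) hM (hne g g.2)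
    exact (Subgroup.mem_centralizer_iff.mp (hle heEO) k hk).symm

/-- The key step: an element of order prime to `p` centralising `P`, whose commutator with the
orbit element is a `p'`-element of a `p'`-group, fixes `L`. -/
theorem mem_normalizer_of_orbit_element {P L W : Subgroup G}
    (hP : IsPGroup p ↥P) (hL : IsComponent L) (hW : ¬ p ∣ Nat.card ↥W) {e a : G}
    (he : e ∈ layer G) (hep : ∃ k : ℕ, e ^ p ^ k = 1) (heL : ¬ ∀ k ∈ L, e * k = k * e)
    (heM : ∀ M : Subgroup G, IsComponent M → (∀ g ∈ P, L.map (MulAut.conj g).toMonoidHom ≠ M) →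
        ∀ k ∈ M, e * k = k * e)
    (haP : ∀ g ∈ P, a * g = g * a) (hap : ¬ p ∣ orderOf a) (hae : ⁅a, e⁆ ∈ W) :
    a ∈ Subgroup.normalizer (L : Set G) := by
  classical
  by_cases hex : ∃ g ∈ P, L.map (MulAut.conj g).toMonoidHom = L.map (MulAut.conj a).toMonoidHom
  · obtain ⟨g, hg, hga⟩ := hex
    have hcm : ∀ x y : G, (L.map (MulAut.conj y).toMonoidHom).map (MulAut.conj x).toMonoidHom =
        L.map (MulAut.conj (x * y)).toMonoidHom := by
      intro x y
      rw [Subgroup.map_map]
      congr 1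
      ext z; simp [mul_assoc]
    have hpow : ∀ n : ℕ, L.map (MulAut.conj (a ^ n)).toMonoidHom = L.map (MulAut.conj (g ^ n)).toMonoidHom := by
      intro n
      induction n with
      | zero => simp
      | succ n ih =>
        have h1 : a * g ^ n = g ^ n * a := (Commute.pow_right (haP g hg) n).eq
        rw [pow_succ', ← hcm, ih, hcm, h1, ← hcm, ← hga, hcm, ← pow_succ]
    have hgm : g ^ orderOf a ∈ Subgroup.normalizer (L : Set G) := by
      rw [Subgroup.mem_normalizer_iff_map_conj_eq]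
      have h2 := hpow (orderOf a)
      rw [pow_orderOf_eq_one] at h2
      refine h2.symm.trans ?_
      rw [map_one]
      exact Subgroup.map_id L
    obtain ⟨k, hk⟩ := hP ⟨g, hg⟩
    have hk' : g ^ p ^ k = 1 := congrArg Subtype.val hk
    have hcop : (orderOf a).Coprime (orderOf g) :=
      (((Fact.out : p.Prime).coprime_iff_not_dvd.mpr hap).symm.pow_right k).coprime_dvd_right
        (orderOf_dvd_of_pow_eq_one hk')
    obtain ⟨m, hm⟩ := exists_pow_eq_self_of_coprime hcop
    have hgn : g ∈ Subgroup.normalizer (L : Set G) := hm ▸ pow_mem hgm m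
    rw [Subgroup.mem_normalizer_iff_map_conj_eq]
    rw [Subgroup.mem_normalizer_iff_map_conj_eq] at hgn
    exact hga.symm.trans hgn
  · exfalso
    push Not at hex
    set M := L.map (MulAut.conj a).toMonoidHom with hM
    have hMc : IsComponent M := isComponent_conj hL a
    have heMc := heM M hMc hex
    have heN : e ∈ Subgroup.normalizer (M : Set G) := layer_le_normalizer hMc he
    have he'N : a * e * a⁻¹ ∈ Subgroup.normalizer (M : Set G) :=
      layer_le_normalizer hMc ((inferInstance : (layer G).Normal).conj_mem e he a)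
    have hwN : ⁅a, e⁆ ∈ Subgroup.normalizer (M : Set G) := by
      rw [commutatorElement_def]
      exact mul_mem he'N (inv_mem heN)
    have hsplit : (⟨_, he'N⟩ : ↥(Subgroup.normalizer (M : Set G))) = ⟨_, hwN⟩ * ⟨e, heN⟩ :=
      Subtype.ext (by show a * e * a⁻¹ = ⁅a, e⁆ * e; rw [commutatorElement_def]; group)
    have heq : LocalBalance.act M ⟨_, he'N⟩ = LocalBalance.act M ⟨_, hwN⟩ := by
      rw [hsplit, map_mul, (LocalBalance.act_eq_one_iff M ⟨e, heN⟩).mpr heMc, mul_one]
    obtain ⟨k, hk⟩ := hep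
    have h1 : (LocalBalance.act M ⟨_, he'N⟩) ^ p ^ k = 1 := by
      rw [← map_pow, show (⟨_, he'N⟩ : ↥(Subgroup.normalizer (M : Set G))) ^ p ^ k = 1 from
        Subtype.ext (by
          show (a * e * a⁻¹) ^ p ^ k = 1
          rw [conj_pow, hk, mul_one, mul_inv_cancel]), map_one]
    have h2 : (orderOf (LocalBalance.act M ⟨_, he'N⟩)).Coprime p := by
      rw [heq]
      refine Nat.Coprime.coprime_dvd_left (orderOf_map_dvd _ _) ?_
      rw [← Subgroup.orderOf_coe]
      exact LocalBalance.coprime_orderOf_of_mem hW hae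
    have h3 : LocalBalance.act M ⟨_, he'N⟩ = 1 := orderOf_eq_one_iff.mp
      (Nat.Coprime.eq_one_of_dvd (h2.pow_right k) (orderOf_dvd_of_pow_eq_one h1))
    apply heL
    intro l hl
    have h4 : a * e * a⁻¹ * (a * l * a⁻¹) = a * l * a⁻¹ * (a * e * a⁻¹) :=
      (LocalBalance.act_eq_one_iff M _).mp h3 _ ⟨l, hl, rfl⟩
    calc e * l = a⁻¹ * (a * e * a⁻¹ * (a * l * a⁻¹)) * a := by group
      _ = a⁻¹ * (a * l * a⁻¹ * (a * e * a⁻¹)) * a := by rw [h4]
      _ = l * e := by group

/-- The `p`-layer of a `p`-local subgroup normalises every component. -/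
theorem map_comap_layer_normalizer_le_normalizer (hO : pPrimeCore p G = ⊥) {P : Subgroup G}
    (hP : IsPGroup p ↥P) {L : Subgroup G} (hL : IsComponent L) :
    (((layer (↥(Subgroup.normalizer (P : Set G)) ⧸
        pPrimeCore p ↥(Subgroup.normalizer (P : Set G)))).comap
      (QuotientGroup.mk' (pPrimeCore p ↥(Subgroup.normalizer (P : Set G))))).map
        (Subgroup.normalizer (P : Set G)).subtype) ≤ Subgroup.normalizer (L : Set G) := by
  classical
  obtain ⟨e, he, hep, hecom, heL, heM⟩ := exists_orbit_element hO hP hL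
  have hXQ := map_comap_layer_normalizer_le (G := G) hP
  set N := Subgroup.normalizer (P : Set G) with hN
  set q := QuotientGroup.mk' (pPrimeCore p ↥N) with hq
  have hker : pPrimeCore p ↥N ≤ (layer (↥N ⧸ pPrimeCore p ↥N)).comap q := fun z hz => by
    rw [Subgroup.mem_comap, hq, QuotientGroup.mk'_apply, (QuotientGroup.eq_one_iff z).mpr hz]
    exact one_mem _
  have hq1 : ∀ z : ↥N, z ∈ pPrimeCore p ↥N → q z = 1 := fun z hz =>
    (QuotientGroup.eq_one_iff z).mpr hz
  -- the group `C`
  set C := Subgroup.centralizer (P : Set G) ⊓ Subgroup.centralizer (pCore p G : Set G) with hC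
  have hCN : C ≤ N := inf_le_left.trans (Subgroup.centralizer_le_normalizer _)
  have hNC : N ≤ Subgroup.normalizer (C : Set G) := by
    intro n hn
    refine Subgroup.mem_normalizer_iff.mpr fun c => ?_
    have h1 := Subgroup.mem_normalizer_iff.mp (normalizer_le_normalizer_centralizer P hn) c
    have h2 := Subgroup.mem_normalizer_iff.mp (normalizer_le_normalizer_centralizer (pCore p G)
      (Subgroup.le_normalizer_of_normal (Subgroup.mem_top n))) c
    rw [hC, Subgroup.mem_inf, Subgroup.mem_inf, h1, h2]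
  have hXC : ∀ a : ↥N, a ∈ (layer (↥N ⧸ pPrimeCore p ↥N)).comap q → (a : G) ∈ C := fun a ha =>
    ⟨Subgroup.mem_centralizer_iff.mpr fun g hg => congrArg Subtype.val
      (commute_pCore_of_mem_comap_layer ha (y := ⟨g, Subgroup.le_normalizer hg⟩)
        (Constrained.le_pCore Subgroup.normal_in_normalizer
          (hP.comap_of_injective _ (Subgroup.subtype_injective _)) hg)),
      hXQ ⟨a, ha, rfl⟩⟩
  -- `e` normalises `C` and the core
  have heC : e ∈ Subgroup.normalizer (C : Set G) := by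
    have key : ∀ e : G, (∀ g ∈ P, ⁅e, g⁆ ∈ pCore p G) → ∀ c ∈ C, e⁻¹ * c * e ∈ C := by
      intro e hecom c hc
      refine ⟨Subgroup.mem_centralizer_iff.mpr fun g hg => ?_, ?_⟩
      · -- `e g e⁻¹ = [e,g] g`
        have hcz : ⁅e, g⁆ * c = c * ⁅e, g⁆ :=
          Subgroup.mem_centralizer_iff.mp hc.2 _ (hecom g hg)
        have hcg : g * c = c * g := Subgroup.mem_centralizer_iff.mp hc.1 g hg
        calc g * (e⁻¹ * c * e) = e⁻¹ * (⁅e, g⁆ * (g * c)) * e := by
              rw [commutatorElement_def]; group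
          _ = e⁻¹ * (⁅e, g⁆ * c * g) * e := by rw [hcg]; simp [mul_assoc]
          _ = e⁻¹ * (c * ⁅e, g⁆ * g) * e := by rw [hcz]
          _ = e⁻¹ * c * e * g := by rw [commutatorElement_def]; group
      · have h := (Subgroup.mem_normalizer_iff.mp (normalizer_le_normalizer_centralizer (pCore p G)
          (Subgroup.le_normalizer_of_normal (Subgroup.mem_top e⁻¹))) c).mp hc.2
        rwa [inv_inv] at h
    have hecom' : ∀ g ∈ P, ⁅e⁻¹, g⁆ ∈ pCore p G := fun g hg => by
      rw [commutatorElement_inv_left, ← commutatorElement_inv e g]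
      simpa using (pCore_normal p G).conj_mem _ (inv_mem (hecom g hg)) e⁻¹
    refine Subgroup.mem_normalizer_iff.mpr fun c => ⟨fun hc => ?_, fun hc => ?_⟩
    · simpa using key e⁻¹ hecom' c hc
    · simpa [mul_assoc] using key e hecom _ hc
  set W := (pPrimeCore p ↥N).map N.subtype with hW
  have hWp : ¬ p ∣ Nat.card ↥W := by
    rw [hW, Subgroup.card_map_of_injective N.subtype_injective]
    exact Constrained.pPrimeCore_not_dvd
  have hWC : W ≤ C := by
    rintro _ ⟨w, hw, rfl⟩
    exact hXC w (hker hw)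
  have hWeq : W = (pPrimeCore p ↥C).map C.subtype := by
    apply le_antisymm
    · haveI : (W.subgroupOf C).Normal := normal_subgroupOf_of_le_normalizer'
        (hCN.trans (Subgroup.le_normalizer.trans (normalizer_le_normalizer_pPrimeCore' N p)))
      intro w hw
      exact ⟨⟨w, hWC hw⟩, Constrained.le_pPrimeCore_of_not_dvd inferInstance
        (by rwa [Nat.card_congr (Subgroup.subgroupOfEquivOfLe hWC).toEquiv])
        (Subgroup.mem_subgroupOf.mpr hw), rfl⟩
    · have hle : (pPrimeCore p ↥C).map C.subtype ≤ N := (Subgroup.map_subtype_le _).trans hCN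
      haveI : (((pPrimeCore p ↥C).map C.subtype).subgroupOf N).Normal :=
        normal_subgroupOf_of_le_normalizer' (hNC.trans (normalizer_le_normalizer_pPrimeCore' C p))
      intro w hw
      exact ⟨⟨w, hle hw⟩, Constrained.le_pPrimeCore_of_not_dvd inferInstance
        (by
          rw [Nat.card_congr (Subgroup.subgroupOfEquivOfLe hle).toEquiv,
            Subgroup.card_map_of_injective C.subtype_injective]
          exact Constrained.pPrimeCore_not_dvd)
        (Subgroup.mem_subgroupOf.mpr hw), rfl⟩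
  have heW : e ∈ Subgroup.normalizer (W : Set G) := by
    rw [hWeq]
    exact normalizer_le_normalizer_pPrimeCore' C p heC
  set T := (Subgroup.normalizer (L : Set G)).subgroupOf N with hT
  -- a `p'`-element with commutator in `W` is in `T`
  have hstep : ∀ a : ↥N, a ∈ (layer (↥N ⧸ pPrimeCore p ↥N)).comap q → ¬ p ∣ orderOf a →
      ⁅(a : G), e⁆ ∈ W → a ∈ T := by
    intro a ha hap hae
    refine Subgroup.mem_subgroupOf.mpr (mem_normalizer_of_orbit_element hP hL hWp he hep heL heM
      (fun g hg => (Subgroup.mem_centralizer_iff.mp (hXC a ha).1 g hg).symm) ?_ hae)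
    rwa [Subgroup.orderOf_coe]
  have hWT : pPrimeCore p ↥N ≤ T := by
    intro w hw
    refine hstep w (hker hw) (fun hd => Constrained.pPrimeCore_not_dvd
      (hd.trans ((pPrimeCore p ↥N).orderOf_dvd_natCard hw))) ?_
    rw [commutatorElement_def, mul_assoc, mul_assoc, ← mul_assoc e]
    exact mul_mem ⟨w, hw, rfl⟩ ((Subgroup.mem_normalizer_iff.mp heW _).mp (inv_mem ⟨w, hw, rfl⟩))
  suffices hlayer : layer (↥N ⧸ pPrimeCore p ↥N) ≤ T.map q by
    rintro _ ⟨x, hx, rfl⟩
    obtain ⟨t, ht, htx⟩ := hlayer hx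
    have hm : t⁻¹ * x ∈ pPrimeCore p ↥N := by
      rw [← QuotientGroup.eq_one_iff]
      show q (t⁻¹ * x) = 1
      rw [map_mul, map_inv, htx, inv_mul_cancel]
    have := T.mul_mem ht (hWT hm)
    rwa [mul_inv_cancel_left] at this
  refine layer_le fun J hJ => ?_
  set CE := (C ⊓ layer G).subgroupOf N with hCE
  haveI hCEn : CE.Normal := normal_subgroupOf_of_le_normalizer' (fun n hn => by
    refine Subgroup.mem_normalizer_iff.mpr fun c => ?_
    exact Subgroup.mem_inf.trans ((and_congr (Subgroup.mem_normalizer_iff.mp (hNC hn) c)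
      (Subgroup.mem_normalizer_iff.mp (Subgroup.le_normalizer_of_normal
        (H := layer G) (Subgroup.mem_top n)) c)).trans Subgroup.mem_inf.symm))
  have hCET : CE ≤ T := fun z hz =>
    Subgroup.mem_subgroupOf.mpr (layer_le_normalizer hL hz.2)
  haveI : (CE.map q).Normal := hCEn.map q (QuotientGroup.mk'_surjective _)
  rcases component_le_or_commutes hJ ((inferInstance : (CE.map q).Normal).isSubnormal) with h | h
  · exact h.trans (Subgroup.map_mono hCET)
  have hJmap : (J.comap q).map q = J :=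
    Subgroup.map_comap_eq_self_of_surjective (QuotientGroup.mk'_surjective _) J
  set Jp := J.comap q with hJp
  have hkJ : pPrimeCore p ↥N ≤ Jp := fun z hz => by
    rw [hJp, Subgroup.mem_comap, hq1 z hz]
    exact one_mem _
  have hJX : Jp ≤ (layer (↥N ⧸ pPrimeCore p ↥N)).comap q := Subgroup.comap_mono (le_layer hJ)
  have hperf : Jp ≤ ⁅Jp, Jp⁆ ⊔ pPrimeCore p ↥N := by
    intro z hz
    have h1 : q z ∈ ⁅Jp, Jp⁆.map q := by
      rw [Subgroup.map_commutator, hJmap, commutator_self_of_isComponent hJ]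
      exact hz
    rwa [← Subgroup.mem_comap, Subgroup.comap_map_eq, QuotientGroup.ker_mk'] at h1
  have hmemCE : ∀ a : ↥N, (a : G) ∈ C → ⁅(a : G), e⁆ ∈ C ⊓ layer G := by
    intro a ha
    refine ⟨?_, ?_⟩
    · rw [commutatorElement_def, mul_assoc, mul_assoc, ← mul_assoc e]
      exact mul_mem ha ((Subgroup.mem_normalizer_iff.mp heC _).mp (inv_mem ha))
    · show ⁅(a : G), e⁆ ∈ layer G
      rw [commutatorElement_def]
      exact mul_mem ((inferInstance : (layer G).Normal).conj_mem e he _) (inv_mem he)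
  let c : ↥Jp → ↥N := fun a => ⟨⁅((a : ↥N) : G), e⁆, hCN (hmemCE _ (hXC _ (hJX a.2))).1⟩
  let φ : ↥Jp → ↥N ⧸ pPrimeCore p ↥N := fun a => q (c a)
  have hcCE : ∀ a : ↥Jp, c a ∈ CE := fun a => hmemCE _ (hXC _ (hJX a.2))
  have hqJ : ∀ (a : ↥Jp) (z : ↥N), z ∈ CE → q (a : ↥N) * q z = q z * q (a : ↥N) := fun a z hz =>
    commute_of_commutator_eq_bot h a.2 ⟨z, hz, rfl⟩
  have hφmul : ∀ a b : ↥Jp, φ (a * b) = φ b * φ a := by
    intro a b
    have h1 : c (a * b) = (a : ↥N) * c b * (a : ↥N)⁻¹ * c a := by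
      apply Subtype.ext
      show ⁅((a : ↥N) : G) * ((b : ↥N) : G), e⁆ = _
      rw [commutatorElement_mul_left_eq_conj_mul]
      rfl
    show q (c (a * b)) = q (c b) * q (c a)
    rw [h1, map_mul, map_mul, map_mul, map_inv, hqJ a _ (hcCE b), mul_inv_cancel_right]
  have hφ1 : φ 1 = 1 := by
    show q (c 1) = 1
    rw [show c 1 = 1 from Subtype.ext (commutatorElement_one_left e), map_one]
  have hφinv : ∀ a : ↥Jp, φ a⁻¹ = (φ a)⁻¹ := fun a => by
    rw [eq_inv_iff_mul_eq_one, ← hφmul, mul_inv_cancel, hφ1]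
  have hφconj : ∀ a b : ↥Jp, φ (a * b * a⁻¹) = φ b := by
    intro a b
    set aG := ((a : ↥N) : G) with haG
    set bG := ((b : ↥N) : G) with hbG
    have haC : aG ∈ C := hXC _ (hJX a.2)
    set z : G := e⁻¹ * aG⁻¹ * e * aG with hz
    have hzCE : z ∈ C ⊓ layer G := by
      refine ⟨mul_mem ?_ haC, ?_⟩
      · have := (Subgroup.mem_normalizer_iff.mp (inv_mem heC) _).mp (inv_mem haC)
        rwa [inv_inv] at this
      · show z ∈ layer G
        rw [hz, mul_assoc, mul_assoc, ← mul_assoc aG⁻¹]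
        refine mul_mem (inv_mem he) ?_
        have := (inferInstance : (layer G).Normal).conj_mem e he aG⁻¹
        rwa [inv_inv] at this
    have hzN : (z : G) ∈ N := hCN hzCE.1
    have hwW : ⁅(b : ↥N), (⟨z, hzN⟩ : ↥N)⁆ ∈ pPrimeCore p ↥N := by
      rw [← QuotientGroup.eq_one_iff]
      show q _ = 1
      rw [map_commutatorElement]
      exact commutatorElement_eq_one_iff_mul_comm.mpr (hqJ b _ hzCE)
    have hwN : e * ⁅bG, z⁆ * e⁻¹ ∈ W :=
      (Subgroup.mem_normalizer_iff.mp heW _).mp ⟨_, hwW, by rw [map_commutatorElement]; rfl⟩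
    obtain ⟨w, hw, hwe⟩ := hwN
    have h1 : c (a * b * a⁻¹) = (a : ↥N) * (c b * w) * (a : ↥N)⁻¹ := by
      apply Subtype.ext
      show ⁅aG * bG * aG⁻¹, e⁆ = aG * (⁅bG, e⁆ * (N.subtype w)) * aG⁻¹
      rw [hwe, hz]
      simp only [commutatorElement_def]
      group
    show q (c (a * b * a⁻¹)) = q (c b)
    rw [h1, map_mul, map_mul, map_mul, map_inv, hq1 w hw, mul_one, hqJ a _ (hcCE b),
      mul_inv_cancel_right]
  have hcommφ : ∀ a b : ↥Jp, φ a * φ b = φ b * φ a := by
    intro a b
    have h1 := hφconj a b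
    rw [hφmul, hφmul, hφinv] at h1
    calc φ a * φ b = φ a * ((φ a)⁻¹ * (φ b * φ a)) := by rw [h1]
      _ = φ b * φ a := by group
  let K0 : Subgroup ↥Jp :=
    { carrier := {a | φ a = 1}
      one_mem' := hφ1
      mul_mem' := fun {a b} ha hb => by
        show φ (a * b) = 1
        rw [hφmul, show φ b = 1 from hb, show φ a = 1 from ha, one_mul]
      inv_mem' := fun {a} ha => by
        show φ a⁻¹ = 1
        rw [hφinv, show φ a = 1 from ha, inv_one] }
  have hK0 : Jp ≤ K0.map Jp.subtype := by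
    refine hperf.trans (sup_le ?_ ?_)
    · rw [Subgroup.commutator_le]
      intro x hx y hy
      refine ⟨⁅(⟨x, hx⟩ : ↥Jp), (⟨y, hy⟩ : ↥Jp)⁆, ?_, rfl⟩
      show φ _ = 1
      rw [commutatorElement_def, hφmul, hφmul, hφmul, hφinv, hφinv,
        hcommφ (⟨y, hy⟩ : ↥Jp) (⟨x, hx⟩ : ↥Jp)]
      group
    · intro w hw
      refine ⟨⟨w, hkJ hw⟩, ?_, rfl⟩
      refine hq1 _ ?_
      obtain ⟨w', hw', e'⟩ : ⁅(w : G), e⁆ ∈ W := by
        rw [commutatorElement_def, mul_assoc, mul_assoc, ← mul_assoc e]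
        exact mul_mem ⟨w, hw, rfl⟩ ((Subgroup.mem_normalizer_iff.mp heW _).mp (inv_mem ⟨w, hw, rfl⟩))
      rwa [show c ⟨w, hkJ hw⟩ = w' from Subtype.ext e'.symm]
  have hJT : Jp ≤ T := by
    refine le_of_pPrime_elements (p := p) hkJ Constrained.pPrimeCore_not_dvd hperf fun a ha hap => ?_
    refine hstep a (hJX ha) hap ?_
    obtain ⟨a', ha', e'⟩ := hK0 ha
    obtain rfl : (a' : ↥N) = a := e'
    exact ⟨c a', (QuotientGroup.eq_one_iff _).mp ha', rfl⟩
  rw [← hJmap]
  exact Subgroup.map_mono hJT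

end CfsgLib.Cores
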