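import Cfsg.Agent.Constrained.Local
import Cfsg.Agent.Cores.InvolutionComponent
import Cfsg.Agent.Cores.GenFitting
import Cfsg.Agent.Coprime.Basic
import Cfsg.Agent.Cores.PMinimal

/-!
Coprime action with solvable commutator: `q'`-cores of centralisers of fixed `q`-elements.
-/

set_option autoImplicit false

open Cfsg
open scoped commutatorElement

namespace CfsgLib.Cores

variable {G : Type*} [Group G] [Finite G] {q : ℕ} [hq : Fact q.Prime]

/-- `O_{q'}(C)` inside `G`. -/
abbrev coreAt (q : ℕ) (C : Subgroup G) : Subgroup G := (pPrimeCore q ↥C).map C.subtype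

theorem not_dvd_card_coreAt (C : Subgroup G) : ¬ q ∣ Nat.card ↥(coreAt q C) := by
  rw [Subgroup.card_map_of_injective C.subtype_injective]
  exact Constrained.pPrimeCore_not_dvd

theorem le_coreAt {C U : Subgroup G} (hU : U ≤ C) (hn : C ≤ Subgroup.normalizer (U : Set G))
    (hc : ¬ q ∣ Nat.card ↥U) : U ≤ coreAt q C := by
  haveI : (U.subgroupOf C).Normal := (Subgroup.normal_subgroupOf_iff_le_normalizer hU).mpr hn
  intro u hu
  exact ⟨⟨u, hU hu⟩, Constrained.le_pPrimeCore_of_not_dvd (N := U.subgroupOf C) inferInstance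
    (by rwa [Nat.card_congr (Subgroup.subgroupOfEquivOfLe hU).toEquiv]) hu, rfl⟩

/-- For solvable `K` normalised by `H`, a subgroup of `O_{q'}(C_H(z))` acts on `K` inside `O_{q'}(K)`. -/
theorem core_centralizer_step {H K : Subgroup G} (hKH : K ≤ H)
    (hHK : H ≤ Subgroup.normalizer (K : Set G)) (hK : Group.IsSolvable ↥K) {z : G} (hzH : z ∈ H)
    (hz : ∃ k : ℕ, orderOf z = q ^ k) {D : Subgroup G}
    (hD : D ≤ coreAt q (H ⊓ Subgroup.centralizer ({z} : Set G))) :
    ⁅K, D⁆ ≤ coreAt q K ∧ (D ≤ K → D ≤ coreAt q K) := by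
  set C := H ⊓ Subgroup.centralizer ({z} : Set G) with hC
  set Z := Subgroup.zpowers z with hZ
  set X := K ⊔ Z ⊔ D with hX
  have hDC : D ≤ C := hD.trans (Subgroup.map_subtype_le _)
  have hXH : X ≤ H := sup_le (sup_le hKH ((Subgroup.zpowers_le).mpr hzH)) (hDC.trans inf_le_left)
  have hZc : Subgroup.centralizer ({z} : Set G) = Subgroup.centralizer (Z : Set G) := by
    rw [hZ, Subgroup.zpowers_eq_closure, Subgroup.centralizer_closure]
  have hqz : IsPGroup q ↥Z := by
    obtain ⟨k, hk⟩ := hz
    exact IsPGroup.of_card (n := k) (by rw [Nat.card_zpowers, hk])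
  -- `X` is `q`-soluble
  have hX' : IsPSolvable q ↥X := by
    have hKX : K ≤ X := le_sup_left.trans le_sup_left
    have hZX : Z ≤ X := le_sup_right.trans le_sup_left
    have hDX : D ≤ X := le_sup_right
    have hN1X : K ⊔ Z ≤ X := le_sup_left
    haveI : (K.subgroupOf X).Normal :=
      (Subgroup.normal_subgroupOf_iff_le_normalizer hKX).mpr (hXH.trans hHK)
    have hDZ : D ≤ Subgroup.normalizer (Z : Set G) :=
      ((hDC.trans inf_le_right).trans hZc.le).trans (Subgroup.centralizer_le_normalizer _)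
    haveI hN : ((K ⊔ Z).subgroupOf X).Normal := by
      refine (Subgroup.normal_subgroupOf_iff_le_normalizer hN1X).mpr ?_
      rw [hX, sup_le_iff]
      exact ⟨Subgroup.le_normalizer, le_normalizer_sup ((hDC.trans inf_le_left).trans hHK) hDZ⟩
    have hs : Group.IsSolvable ↥((K ⊔ Z).subgroupOf X) := by
      rw [Subgroup.subgroupOf_sup hKX hZX]
      exact isSolvable_sup (solvable_of_surjective (f := (Subgroup.subgroupOfEquivOfLe hKX).symm.toMonoidHom)
        (MulEquiv.surjective _)) (solvable_of_surjective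
          (f := (Subgroup.subgroupOfEquivOfLe hZX).symm.toMonoidHom) (MulEquiv.surjective _))
    refine Constrained.isPSolvable_of_extension ((K ⊔ Z).subgroupOf X)
      Constrained.isPSolvable_of_isSolvable (Constrained.isPSolvable_of_not_dvd fun hd => ?_)
    have htop : D.subgroupOf X ⊔ (K ⊔ Z).subgroupOf X = ⊤ := by
      rw [← Subgroup.subgroupOf_sup hDX hN1X, Subgroup.subgroupOf_eq_top, sup_comm]
    have hdv : ((K ⊔ Z).subgroupOf X).index ∣ Nat.card ↥D := by
      rw [← Subgroup.relIndex_top_right, ← htop, Subgroup.relIndex_sup_right,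
        ← Nat.card_congr (Subgroup.subgroupOfEquivOfLe hDX).toEquiv]
      exact Subgroup.relIndex_dvd_card _ _
    exact not_dvd_card_coreAt C ((hd.trans hdv).trans (Subgroup.card_dvd_of_le hD))
  -- the centraliser core lies in `O_{q'}(X)`
  set Q := coreAt q C ⊓ X with hQ
  have hQX : Q.subgroupOf X ≤ pPrimeCore q ↥X := by
    refine Constrained.le_pPrimeCore_of_centralizes_of_normalized
      (Constrained.centralizer_pCore_quotient_le hX') (P := Z.subgroupOf X)
      (hqz.comap_of_injective _ X.subtype_injective) ?_ ?_ ?_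
    · rw [Nat.card_congr (Subgroup.subgroupOfEquivOfLe inf_le_right).toEquiv]
      exact fun hd => not_dvd_card_coreAt C (hd.trans (Subgroup.card_dvd_of_le inf_le_left))
    · intro x hx
      refine Subgroup.mem_centralizer_iff.mpr fun y hy => Subtype.ext ?_
      have hxz : (x : G) ∈ Subgroup.centralizer (Z : Set G) := hZc ▸ ((Subgroup.map_subtype_le _) hx.1).2
      exact Subgroup.mem_centralizer_iff.mp hxz _ hy
    · intro x hx
      have hxc : (x : G) ∈ C := by
        refine ⟨hXH x.2, Subgroup.mem_centralizer_singleton_iff.mpr ?_⟩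
        exact (congrArg Subtype.val (Subgroup.mem_centralizer_iff.mp hx ⟨z, (le_sup_right.trans le_sup_left : Z ≤ X)
          (Subgroup.mem_zpowers z)⟩ (Subgroup.mem_zpowers z))).symm
      have hn : (x : G) ∈ Subgroup.normalizer (Q : Set G) :=
        le_normalizer_inf (A := Subgroup.zpowers (x : G))
          ((Subgroup.zpowers_le).mpr (normalizer_le_normalizer_pPrimeCore C q (Subgroup.le_normalizer hxc)))
          ((Subgroup.zpowers_le).mpr (Subgroup.le_normalizer x.2)) (Subgroup.mem_zpowers _)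
      refine Subgroup.mem_normalizer_iff.mpr fun y => ?_
      exact Subgroup.mem_normalizer_iff.mp hn (y : G)
  have hDcore : D ≤ coreAt q X := fun d hd =>
    ⟨⟨d, le_sup_right (a := K ⊔ Z) hd⟩, hQX ⟨hD hd, le_sup_right (a := K ⊔ Z) hd⟩, rfl⟩
  have hKn : X ≤ Subgroup.normalizer (coreAt q X : Set G) :=
    Subgroup.le_normalizer.trans (normalizer_le_normalizer_pPrimeCore X q)
  have hKX : K ≤ X := le_sup_left.trans le_sup_left
  have hint : coreAt q X ⊓ K ≤ coreAt q K := le_coreAt inf_le_right
    (le_normalizer_inf (hKX.trans hKn) Subgroup.le_normalizer)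
    fun hd => not_dvd_card_coreAt X (hd.trans (Subgroup.card_dvd_of_le inf_le_left))
  refine ⟨le_trans (le_inf ?_ ?_) hint, fun h => (le_inf hDcore h).trans hint⟩
  · exact (Subgroup.commutator_mono le_rfl hDcore).trans (by
      rw [Subgroup.commutator_comm]
      exact Coprime.commutator_le_of_le_normalizer (hKX.trans hKn))
  · exact Coprime.commutator_le_of_le_normalizer ((hDC.trans inf_le_left).trans hHK)

/-- `(O_{q'}(C_H(z)) ∩ O_{q'}(C_H(P))) [O_{q'}(C_H(z)), P] ≤ O_{q'}(H)` for coprime `P` with `[H, P]`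
solvable. -/
theorem flavell_balance {H P : Subgroup G} (hPH : P ≤ Subgroup.normalizer (H : Set G))
    (hcop : (Nat.card P).Coprime (Nat.card H)) (hPs : Group.IsSolvable ↥P)
    (hsol : Group.IsSolvable ↥⁅H, P⁆) {z : G} (hzH : z ∈ H) (hzP : z ∈ Subgroup.centralizer (P : Set G))
    (hz : ∃ k : ℕ, orderOf z = q ^ k) :
    (coreAt q (H ⊓ Subgroup.centralizer ({z} : Set G)) ⊓ coreAt q (H ⊓ Subgroup.centralizer (P : Set G))) ⊔
      ⁅coreAt q (H ⊓ Subgroup.centralizer ({z} : Set G)), P⁆ ≤ coreAt q H := by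
  set K := ⁅H, P⁆ with hK
  set C := H ⊓ Subgroup.centralizer ({z} : Set G) with hC
  set F := H ⊓ Subgroup.centralizer (P : Set G) with hF
  have hKH : K ≤ H := Coprime.commutator_le_of_le_normalizer hPH
  have hHK : H ≤ Subgroup.normalizer (K : Set G) := Subgroup.normalizer_commutator_ge_left H P
  have hKc : Subgroup.normalizer (K : Set G) ≤ Subgroup.normalizer (coreAt q K : Set G) :=
    normalizer_le_normalizer_pPrimeCore K q
  have hKcH : coreAt q K ≤ coreAt q H := le_coreAt ((Subgroup.map_subtype_le _).trans hKH)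
    (hHK.trans hKc) (not_dvd_card_coreAt K)
  have hPC : P ≤ Subgroup.normalizer (coreAt q C : Set G) := by
    refine le_trans (le_normalizer_inf hPH ?_) (normalizer_le_normalizer_pPrimeCore C q)
    intro a ha
    refine Subgroup.mem_normalizer_iff.mpr fun x => ?_
    have haz : a * z = z * a := Subgroup.mem_centralizer_iff.mp hzP a ha
    rw [Subgroup.mem_centralizer_singleton_iff, Subgroup.mem_centralizer_singleton_iff]
    have e1 : a * x * a⁻¹ * z = a * (x * z) * a⁻¹ := by
      rw [mul_assoc _ a⁻¹ z, (Commute.inv_left (haz : Commute a z)).eq]; group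
    have e2 : z * (a * x * a⁻¹) = a * (z * x) * a⁻¹ := by
      rw [← mul_assoc, ← mul_assoc, ← haz]; group
    rw [e1, e2, mul_left_inj, mul_right_inj]
  refine sup_le ?_ ?_
  swap
  · have hle : ⁅coreAt q C, P⁆ ≤ coreAt q C := Coprime.commutator_le_of_le_normalizer hPC
    exact ((core_centralizer_step hKH hHK hsol hzH hz hle).2
      (Subgroup.commutator_mono ((Subgroup.map_subtype_le _).trans inf_le_left) le_rfl)).trans hKcH
  set D := coreAt q C ⊓ coreAt q F with hD
  have hKD : ⁅K, D⁆ ≤ coreAt q K := (core_centralizer_step hKH hHK hsol hzH hz inf_le_left).1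
  set D' := ⨆ c : F, D.map (MulAut.conj (c : G)).toMonoidHom with hD'
  have hDD' : D ≤ D' := le_iSup_of_le 1 (by rw [Subgroup.coe_one, Coprime.map_conj_one])
  have hFn : F ≤ Subgroup.normalizer (coreAt q K : Set G) := inf_le_left.trans (hHK.trans hKc)
  have hKD' : ∀ k ∈ K, ∀ d ∈ D', k * d * k⁻¹ ∈ D' ⊔ coreAt q K := by
    intro k hk
    have hle : D' ≤ (D' ⊔ coreAt q K).comap (MulAut.conj k).toMonoidHom := by
      refine iSup_le fun c => ?_
      rintro _ ⟨d, hd, rfl⟩
      show k * (c * d * (c : G)⁻¹) * k⁻¹ ∈ D' ⊔ coreAt q K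
      set k' := (c : G)⁻¹ * k * (c : G)⁻¹⁻¹ with hk'
      have hk'K : k' ∈ K := Coprime.conj_mem_of_le_normalizer hHK (inv_mem c.2.1) hk
      rw [show k * (c * d * (c : G)⁻¹) * k⁻¹ = (c * ⁅k', d⁆ * (c : G)⁻¹) * (c * d * (c : G)⁻¹) by
        rw [hk', commutatorElement_def]; group]
      refine mul_mem (Subgroup.mem_sup_right (Coprime.conj_mem_of_le_normalizer hFn c.2
        (hKD (Subgroup.commutator_mem_commutator hk'K hd)))) (Subgroup.mem_sup_left ?_)
      exact Subgroup.mem_iSup_of_mem c ⟨d, hd, rfl⟩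
    exact fun d hd => hle hd
  have hFD' : F ≤ Subgroup.normalizer (D' : Set G) :=
    Coprime.le_normalizer_of_conj_mem fun c hc d hd => by
      have hle : D' ≤ D'.comap (MulAut.conj c).toMonoidHom := iSup_le fun c' => by
        rw [← Subgroup.map_le_iff_le_comap, Coprime.map_conj_map_conj]
        exact le_iSup_of_le (⟨c, hc⟩ * c') le_rfl
      exact hle hd
  have hD'F : D' ≤ coreAt q F := iSup_le fun c =>
    (Subgroup.map_mono inf_le_right).trans (map_conj_fix (normalizer_le_normalizer_pPrimeCore F q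
      (Subgroup.le_normalizer c.2))).le
  set U := D' ⊔ coreAt q K with hU
  have hUH : U ≤ H := sup_le (hD'F.trans ((Subgroup.map_subtype_le _).trans inf_le_left))
    ((Subgroup.map_subtype_le _).trans hKH)
  have hKcU : K ≤ Subgroup.normalizer (coreAt q K : Set G) := Subgroup.le_normalizer.trans hKc
  have hHU : H ≤ Subgroup.normalizer (U : Set G) := by
    refine (Coprime.eq_commutator_sup_centralizer hPH hcop (Or.inl hPs)).ge.trans
      (sup_le ?_ (le_normalizer_sup hFD' hFn))
    refine Coprime.le_normalizer_of_conj_mem fun k hk u hu => ?_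
    have hle : U ≤ U.comap (MulAut.conj k).toMonoidHom := sup_le (fun d hd => hKD' k hk d hd)
      fun w hw => Subgroup.mem_sup_right (Coprime.conj_mem_of_le_normalizer hKcU hk hw)
    exact hle hu
  refine (hDD'.trans le_sup_left).trans (le_coreAt hUH hHU ?_)
  have hKc' : coreAt q K ≤ H := (Subgroup.map_subtype_le _).trans hKH
  haveI : ((coreAt q K).subgroupOf H).Normal :=
    (Subgroup.normal_subgroupOf_iff_le_normalizer hKc').mpr (hHK.trans hKc)
  have hD'H : D' ≤ H := hD'F.trans ((Subgroup.map_subtype_le _).trans inf_le_left)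
  rw [← Nat.card_congr (Subgroup.subgroupOfEquivOfLe hUH).toEquiv, hU, sup_comm, Subgroup.subgroupOf_sup hKc' hD'H]
  refine Constrained.not_dvd_card_sup ?_ ?_
  · rw [Nat.card_congr (Subgroup.subgroupOfEquivOfLe hKc').toEquiv]; exact not_dvd_card_coreAt K
  · rw [Nat.card_congr (Subgroup.subgroupOfEquivOfLe hD'H).toEquiv]
    exact fun hd => not_dvd_card_coreAt F (hd.trans (Subgroup.card_dvd_of_le hD'F))

end CfsgLib.Cores
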