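import Cfsg.Agent.Cores.Misc
import Cfsg.Agent.Transfer.Tate
import Cfsg.Agent.Transfer.TwoGenerator
import Cfsg.Agent.Transfer.CyclicSylow
import Cfsg.Agent.Transfer.NormalPComplement
import Cfsg.Agent.CharP.PResidual
import Cfsg.Agent.Coprime.Basic
import Cfsg.Agent.PGroup.Frattini
import Cfsg.Agent.Coprime.Sylow
import Cfsg.Agent.S0575
import Mathlib.GroupTheory.SchurZassenhaus

/-!
Groups with a two-generated non-abelian Sylow `p`-subgroup `P`, trivial `p'`-core and no nontrivial
normal subgroup in `Φ(P)`.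
-/

set_option autoImplicit false

open Cfsg
open scoped commutatorElement Pointwise

namespace CfsgLib.Cores

variable {G : Type*} [Group G]

/-- If `⟨P, M⟩ ∩ P ⊄ Φ(P)` then `P / (P ∩ M)` is cyclic. -/
theorem isCyclic_quotient_of_not_le_frattini {P : Type*} [Group P] [Finite P] {p : ℕ} [Fact p.Prime]
    (hP : IsPGroup p P) (hgen : (frattini P).index = p ^ 2) (M : Subgroup P) [M.Normal]
    (hM : ¬ M ≤ frattini P) : IsCyclic (P ⧸ M) := by
  refine PGroup.isCyclic_of_frattini_index (p := p) ?_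
  have hle : (frattini P).map (QuotientGroup.mk' M) ≤ frattini (P ⧸ M) :=
    Subgroup.map_le_iff_le_comap.mpr
      (frattini_le_comap_frattini_of_surjective (QuotientGroup.mk'_surjective M))
  refine (Subgroup.index_dvd_of_le hle).trans ?_
  rw [Subgroup.index_map, QuotientGroup.ker_mk',
    MonoidHom.range_eq_top_of_surjective _ (QuotientGroup.mk'_surjective M), Subgroup.index_top, mul_one]
  have h1 : (frattini P ⊔ M).index ∣ p ^ 2 := hgen ▸ Subgroup.index_dvd_of_le le_sup_left
  obtain ⟨k, hk2, hk⟩ := (Nat.dvd_prime_pow Fact.out).mp h1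
  have hk1 : k ≠ 2 := by
    rintro rfl
    apply hM
    have e : frattini P = frattini P ⊔ M := by
      refine Subgroup.eq_of_le_of_card_ge le_sup_left (le_of_eq ?_)
      have e1 := (frattini P ⊔ M).card_mul_index
      have e2 := (frattini P).card_mul_index
      rw [hk] at e1
      rw [hgen] at e2
      exact Nat.eq_of_mul_eq_mul_right (pow_pos (Fact.out : p.Prime).pos 2) (e1.trans e2.symm)
    exact e ▸ le_sup_right
  rw [hk]
  interval_cases k <;> simp_all

/-- Two normal subgroups with cyclic quotients and trivial intersection: the group is abelian. -/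
theorem commute_of_cyclic_quotients {P : Type*} [Group P] {M₁ M₂ : Subgroup P} [M₁.Normal]
    [M₂.Normal] (h1 : IsCyclic (P ⧸ M₁)) (h2 : IsCyclic (P ⧸ M₂)) (hd : M₁ ⊓ M₂ = ⊥) :
    IsMulCommutative P := by
  refine ⟨⟨fun a b => commutatorElement_eq_one_iff_mul_comm.mp ?_⟩⟩
  rw [← Subgroup.mem_bot, ← hd]
  haveI : IsMulCommutative (P ⧸ M₁) := IsCyclic.isMulCommutative
  haveI : IsMulCommutative (P ⧸ M₂) := IsCyclic.isMulCommutative
  have hc : ∀ (M : Subgroup P) [M.Normal] [IsMulCommutative (P ⧸ M)], ⁅a, b⁆ ∈ M := by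
    intro M _ _
    rw [← QuotientGroup.eq_one_iff, ← QuotientGroup.mk'_apply, map_commutatorElement,
      commutatorElement_eq_one_iff_mul_comm]
    exact mul_comm' _ _
  exact ⟨hc M₁, hc M₂⟩

variable [Finite G] {p : ℕ} [Fact p.Prime]

theorem map_pResidual_eq_bot_of_coprime (hO : pPrimeCore p G = ⊥) {N : Subgroup G}
    (hN : N.IsSubnormal) (h : HasNormalPComplement p ↥N) : (pResidual p ↥N).map N.subtype = ⊥ := by
  haveI := CharP.pResidual_normal (G := ↥N) (p := p)
  have hc := (Transfer.hasNormalPComplement_iff_coprime_pResidual (p := p)).mp h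
  refine le_bot_iff.mp (hO ▸ ?_)
  refine le_trans (Subgroup.map_mono (Constrained.le_pPrimeCore inferInstance hc))
    (map_pPrimeCore_subnormal_le hN)

theorem isPGroup_of_hasNormalPComplement (hO : pPrimeCore p G = ⊥) {N : Subgroup G}
    (hN : N.IsSubnormal) (h : HasNormalPComplement p ↥N) : IsPGroup p ↥N := by
  haveI := CharP.pResidual_normal (G := ↥N) (p := p)
  have hb : pResidual p ↥N = ⊥ :=
    (Subgroup.map_eq_bot_iff_of_injective _ N.subtype_injective).mp (map_pResidual_eq_bot_of_coprime hO hN h)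
  have hq := CharP.isPGroup_quotient_pResidual (p := p) (pResidual p ↥N) le_rfl
  exact hq.of_injective (QuotientGroup.mk' _)
    ((MonoidHom.ker_eq_bot_iff _).mp (by rw [QuotientGroup.ker_mk', hb]))

theorem isCyclic_map_of_le_conj {N : Subgroup G} [N.Normal] (P : Sylow p G)
    (hc : IsCyclic ↥((P : Subgroup G).map (QuotientGroup.mk' N))) {U : Subgroup G} (hU : IsPGroup p ↥U) :
    IsCyclic ↥(U.map (QuotientGroup.mk' N)) := by
  obtain ⟨P1, hP1⟩ := hU.exists_le_sylow
  obtain ⟨g, rfl⟩ := MulAction.exists_smul_eq G P P1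
  have e : ((g • P : Sylow p G) : Subgroup G).map (QuotientGroup.mk' N) =
      ((P : Subgroup G).map (QuotientGroup.mk' N)).map (MulAut.conj (QuotientGroup.mk' N g)).toMonoidHom := by
    rw [Sylow.coe_subgroup_smul]
    ext x
    constructor
    · rintro ⟨y, hy, rfl⟩
      obtain ⟨w, hw, rfl⟩ := hy
      exact ⟨_, ⟨w, hw, rfl⟩, by simp⟩
    · rintro ⟨_, ⟨w, hw, rfl⟩, rfl⟩
      exact ⟨_, Subgroup.smul_mem_pointwise_smul w (MulAut.conj g) _ hw, by simp⟩
  haveI := hc
  haveI : IsCyclic ↥(((g • P : Sylow p G) : Subgroup G).map (QuotientGroup.mk' N)) :=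
    isCyclic_of_surjective
      ((((P : Subgroup G).map (QuotientGroup.mk' N)).equivMapOfInjective _
        (MulAut.conj (QuotientGroup.mk' N g)).injective).trans (MulEquiv.subgroupCongr e.symm))
      (MulEquiv.surjective _)
  exact isCyclic_of_injective (Subgroup.inclusion (Subgroup.map_mono hP1)) (Subgroup.inclusion_injective _)

/-- A nontrivial central `p`-subgroup of a perfect group is not the bottom of an abelian Sylow. -/
theorem center_eq_bot_of_perfect_of_abelian_sylow (hperf : commutator G = ⊤) (S : Sylow p G)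
    (hS : ∀ a b : ↥(S : Subgroup G), a * b = b * a) {z : G} (hz : z ∈ Subgroup.center G)
    (hzS : z ∈ (S : Subgroup G)) : z = 1 := by
  letI : CommGroup ↥(S : Subgroup G) := { (inferInstance : Group ↥(S : Subgroup G)) with mul_comm := hS }
  have key : ∀ (k : ℕ) (g₀ : G), g₀⁻¹ * z ^ k * g₀ ∈ (S : Subgroup G) →
      g₀⁻¹ * z ^ k * g₀ = z ^ k := by
    intro k g₀ _
    rw [mul_assoc, ← Subgroup.mem_center_iff.mp ((Subgroup.center G).pow_mem hz k) g₀,
      inv_mul_cancel_left]
  have h1 := MonoidHom.transfer_eq_pow (MonoidHom.id ↥(S : Subgroup G)) z key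
  have h2 : MonoidHom.transfer (MonoidHom.id ↥(S : Subgroup G)) z = 1 := by
    have hker : commutator G ≤ (MonoidHom.transfer (MonoidHom.id ↥(S : Subgroup G))).ker := by
      rw [commutator_eq_closure, Subgroup.closure_le]
      rintro _ ⟨a, b, rfl⟩
      simp [commutatorElement_def, mul_comm]
    exact hker (hperf ▸ Subgroup.mem_top z)
  rw [h2] at h1
  have h3 : z ^ (S : Subgroup G).index = 1 := (congrArg Subtype.val h1).symm
  obtain ⟨k, hk⟩ := S.2 ⟨z, hzS⟩
  have hk' : z ^ p ^ k = 1 := congrArg Subtype.val hk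
  exact orderOf_eq_one_iff.mp (Nat.eq_one_of_dvd_one
    ((((Fact.out : p.Prime).coprime_iff_not_dvd.mpr S.not_dvd_index).pow_left k) ▸
      Nat.dvd_gcd (orderOf_dvd_of_pow_eq_one hk') (orderOf_dvd_of_pow_eq_one h3)))

/-- A centraliser mod `N` of `O/N` with cyclic Sylow is a `p`-group. -/
theorem eq_bot_of_cyclic_mod (hO : pPrimeCore p G = ⊥) {N O : Subgroup G} [N.Normal] [O.Normal]
    (hmin : ∀ K : Subgroup G, K.Normal → K ≠ ⊥ → N ≤ K) (hNO : N ≤ O) (hne : N ≠ ⊥)
    (hOp : IsPGroup p ↥O) (hOmax : ∀ K : Subgroup G, K.Normal → IsPGroup p ↥K → K ≤ O) (hOc : IsMulCommutative ↥O)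
    (hCO : Subgroup.centralizer (O : Set G) ≤ O) (hOe : ∀ o ∈ O, o ^ p = 1) (P : Sylow p G)
    (hc : IsCyclic ↥((P : Subgroup G).map (QuotientGroup.mk' N))) (hPO : ¬ (P : Subgroup G) ≤ O) :
    O ≤ N := by
  by_contra hON
  set π := QuotientGroup.mk' N with hπ
  have hπs : Function.Surjective π := QuotientGroup.mk'_surjective N
  set Ob := O.map π with hOb
  haveI hObn : Ob.Normal := Subgroup.Normal.map inferInstance π hπs
  set Pb := P.mapSurjective hπs with hPb
  have hPbc : IsCyclic ↥(Pb : Subgroup (G ⧸ N)) := by rw [hPb, Sylow.coe_mapSurjective]; exact hc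
  have hObne : Ob ≠ ⊥ := by
    rwa [hOb, ne_eq, Subgroup.map_eq_bot_iff, hπ, QuotientGroup.ker_mk']
  have hObP : Ob ≤ (Pb : Subgroup (G ⧸ N)) := by
    rw [hPb, Sylow.coe_mapSurjective]
    exact Subgroup.map_mono (IsPGroup.le_sylow_of_normal hOp P)
  set C := Subgroup.centralizer (Ob : Set (G ⧸ N)) with hC
  haveI : IsMulCommutative ↥(Pb : Subgroup (G ⧸ N)) := IsCyclic.isMulCommutative
  have hPC : (Pb : Subgroup (G ⧸ N)) ≤ C :=
    (Subgroup.le_centralizer (Pb : Subgroup (G ⧸ N))).trans (Subgroup.centralizer_le hObP)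
  have hnpc : HasNormalPComplement p ↥C := by
    refine Transfer.hasNormalPComplement_of_normalizer_le_centralizer (Pb.subtype hPC) fun g hg => ?_
    have hgN : (g : G ⧸ N) ∈ Subgroup.normalizer ((Pb : Subgroup (G ⧸ N)) : Set (G ⧸ N)) := by
      refine Subgroup.mem_normalizer_iff.mpr fun x => ⟨fun hx => ?_, fun hx => ?_⟩
      · exact Subgroup.mem_subgroupOf.mp
          ((Subgroup.mem_normalizer_iff.mp hg (⟨x, hPC hx⟩ : ↥C)).mp (Subgroup.mem_subgroupOf.mpr hx))
      · have hxC : (g : G ⧸ N) * x * (g : G ⧸ N)⁻¹ ∈ C := hPC hx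
        have hxC' : x ∈ C := by
          have := C.mul_mem (C.mul_mem (C.inv_mem g.2) hxC) g.2
          simpa [mul_assoc] using this
        exact Subgroup.mem_subgroupOf.mp
          ((Subgroup.mem_normalizer_iff.mp hg (⟨x, hxC'⟩ : ↥C)).mpr (Subgroup.mem_subgroupOf.mpr hx))
    have hgc := Transfer.mem_centralizer_of_cyclic_sylow_fixed Pb hPbc hgN hObP hObne g.2
    exact Subgroup.mem_centralizer_iff.mpr fun x hx =>
      Subtype.ext (Subgroup.mem_centralizer_iff.mp hgc (x : G ⧸ N) (Subgroup.mem_subgroupOf.mp hx))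
  haveI hCn : C.Normal := Subgroup.normal_centralizer
  set Q := (pResidual p ↥C).map C.subtype with hQ
  haveI : (pResidual p ↥C).Characteristic := CharP.pResidual_characteristic
  haveI hQn : Q.Normal := ConjAct.normal_of_characteristic_of_normal
  have hQc : (Nat.card ↥Q).Coprime p := by
    rw [hQ, Subgroup.card_map_of_injective C.subtype_injective]
    exact Transfer.hasNormalPComplement_iff_coprime_pResidual.mp hnpc
  set W := Q.comap π with hW
  haveI hWn : W.Normal := hQn.comap π
  have hNW : N ≤ W := by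
    intro x hx
    rw [hW, Subgroup.mem_comap, hπ, QuotientGroup.mk'_apply, (QuotientGroup.eq_one_iff x).mpr hx]
    exact Q.one_mem
  have hNp : IsPGroup p ↥N := hOp.to_le hNO
  obtain ⟨n, hn⟩ := IsPGroup.iff_card.mp hNp
  have hindex : (N.subgroupOf W).index = Nat.card ↥Q := by
    have e1 := (N.subgroupOf W).card_mul_index
    rw [Nat.card_congr (Subgroup.subgroupOfEquivOfLe hNW).toEquiv] at e1
    have e2 : Nat.card ↥W = Nat.card ↥N * Nat.card ↥Q := by
      have h1 := (N.subgroupOf W).card_eq_card_quotient_mul_card_subgroup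
      let ψ : ↥W →* ↥Q := (π.comp W.subtype).codRestrict Q fun w => w.2
      have hψ : Function.Surjective ψ := by
        rintro ⟨q, hq⟩
        obtain ⟨x, rfl⟩ := hπs q
        exact ⟨⟨x, hq⟩, rfl⟩
      have hk : ψ.ker = N.subgroupOf W := by
        ext w
        rw [MonoidHom.mem_ker, Subgroup.mem_subgroupOf, Subtype.ext_iff]
        exact QuotientGroup.eq_one_iff (w : G)
      rw [← Nat.card_congr (Subgroup.subgroupOfEquivOfLe hNW).toEquiv, ← hk,
        ← Nat.card_congr (QuotientGroup.quotientKerEquivOfSurjective ψ hψ).toEquiv, mul_comm]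
      exact Subgroup.card_eq_card_quotient_mul_card_subgroup _
    rw [e2] at e1
    exact Nat.eq_of_mul_eq_mul_left Nat.card_pos e1
  obtain ⟨Q0, hQ0⟩ := Subgroup.exists_right_complement'_of_coprime (N := N.subgroupOf W) (by
    rw [hindex, Nat.card_congr (Subgroup.subgroupOfEquivOfLe hNW).toEquiv, hn]
    exact (hQc.symm.pow_left n))
  set B := Q0.map W.subtype with hB
  have hBcard : Nat.card ↥B = Nat.card ↥Q := by
    rw [hB, Subgroup.card_map_of_injective W.subtype_injective, ← hindex, hQ0.symm.index_eq_card]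
  have hBW : B ≤ W := Subgroup.map_subtype_le _
  have hWle : W ≤ N ⊔ B := by
    intro w hw
    obtain ⟨a, b, hab⟩ : ∃ (a : ↥(N.subgroupOf W)) (b : ↥Q0), (a : ↥W) * b = ⟨w, hw⟩ := by
      obtain ⟨⟨a, b⟩, h⟩ := hQ0.2 ⟨w, hw⟩
      exact ⟨a, b, h⟩
    rw [← show ((a : ↥W) : G) * ((b : ↥W) : G) = w from congrArg Subtype.val hab]
    exact mul_mem (Subgroup.mem_sup_left (Subgroup.mem_subgroupOf.mp a.2))
      (Subgroup.mem_sup_right ⟨_, b.2, rfl⟩)
  obtain ⟨o, hoO, hoN⟩ := SetLike.not_le_iff_exists.mp hON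
  obtain ⟨z, hz, hzC⟩ : ∃ z ∈ N, z * o ∈ Subgroup.centralizer (B : Set G) := by
    refine Coprime.exists_mul_mem_centralizer Subgroup.le_normalizer_of_normal
      (by rw [hBcard, hn]; exact hQc.pow_right n)
      (Or.inr (Coprime.isSolvable_of_isPGroup hNp)) ?_
    intro b hb
    have h1 : Commute (π o) (π b) :=
      Subgroup.mem_centralizer_iff.mp (Subgroup.map_subtype_le _ (hBW hb)) (π o) ⟨o, hoO, rfl⟩
    rw [← QuotientGroup.eq_one_iff, ← QuotientGroup.mk'_apply, map_commutatorElement]
    exact commutatorElement_eq_one_iff_mul_comm.mpr h1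
  set F := O ⊓ Subgroup.centralizer (W : Set G) with hF
  haveI hFn : F.Normal := inferInstance
  have hzo : z * o ∈ F := by
    refine ⟨O.mul_mem (hNO hz) hoO, Subgroup.mem_centralizer_iff.mpr fun w hw => ?_⟩
    have hle : N ⊔ B ≤ Subgroup.centralizer ({z * o} : Set G) := by
      refine sup_le (fun m hm => ?_) fun b hb => ?_
      · exact Subgroup.mem_centralizer_singleton_iff.mpr
          (congrArg Subtype.val (hOc.1.comm ⟨m, hNO hm⟩ ⟨z * o, O.mul_mem (hNO hz) hoO⟩))
      · exact Subgroup.mem_centralizer_singleton_iff.mpr (Subgroup.mem_centralizer_iff.mp hzC b hb)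
    exact Subgroup.mem_centralizer_singleton_iff.mp (hle (hWle hw))
  have hzoN : z * o ∉ N := fun h => hoN (by
    have := N.mul_mem (N.inv_mem hz) h
    rwa [inv_mul_cancel_left] at this)
  have hFne : F ≠ ⊥ := fun h => hzoN (by
    rw [h, Subgroup.mem_bot] at hzo
    rw [hzo]; exact N.one_mem)
  -- `O = N⟨zo⟩`, as `O / N` has order `p`
  have hOF : O ≤ F := by
    have hdvd : Nat.card ↥Ob ∣ p := by
      haveI := hPbc
      refine Transfer.card_dvd_prime_of_cyclic
        (isCyclic_of_injective (Subgroup.inclusion hObP) (Subgroup.inclusion_injective _)) ?_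
      rintro ⟨_, x, hx, rfl⟩
      apply Subtype.ext
      show (π x) ^ p = 1
      rw [← map_pow, hOe x hx, map_one]
    have hFb : F.map π = Ob := by
      refine Subgroup.eq_of_le_of_card_ge (Subgroup.map_mono inf_le_left) ?_
      have hne' : Nat.card ↥(F.map π) ≠ 1 := fun h => hzoN (by
        have h' : π (z * o) ∈ F.map π := ⟨_, hzo, rfl⟩
        rw [Subgroup.card_eq_one.mp h, Subgroup.mem_bot] at h'
        exact (QuotientGroup.eq_one_iff (z * o)).mp h')
      rcases (Nat.dvd_prime Fact.out).mp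
        ((Subgroup.card_dvd_of_le (Subgroup.map_mono inf_le_left)).trans hdvd) with h | h
      · exact absurd h hne'
      · rw [h]; exact Nat.le_of_dvd (Fact.out : p.Prime).pos hdvd
    intro x hx
    obtain ⟨f, hf, hfx⟩ : π x ∈ F.map π := hFb ▸ ⟨x, hx, rfl⟩
    have h1 : f⁻¹ * x ∈ N := QuotientGroup.eq.mp hfx
    have h2 := F.mul_mem hf (hmin F hFn hFne h1)
    rwa [mul_inv_cancel_left] at h2
  have hWO : W ≤ O := (Subgroup.le_centralizer_iff.mp (hOF.trans inf_le_right)).trans hCO
  have hQbot : Q = ⊥ := by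
    refine Subgroup.card_eq_one.mp (hBcard ▸ Nat.eq_one_of_dvd_one ?_)
    obtain ⟨k, hk⟩ := IsPGroup.iff_card.mp hOp
    rw [← (hQc.pow_right k), hBcard]
    exact Nat.dvd_gcd dvd_rfl (hk ▸ hBcard ▸ Subgroup.card_dvd_of_le (hBW.trans hWO))
  have hCp : IsPGroup p ↥C := by
    haveI := CharP.pResidual_normal (G := ↥C) (p := p)
    have hb : pResidual p ↥C = ⊥ :=
      (Subgroup.map_eq_bot_iff_of_injective _ C.subtype_injective).mp hQbot
    exact (CharP.isPGroup_quotient_pResidual (p := p) (pResidual p ↥C) le_rfl).of_injective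
      (QuotientGroup.mk' _) ((MonoidHom.ker_eq_bot_iff _).mp (by rw [QuotientGroup.ker_mk', hb]))
  set C' := C.comap π with hC'
  haveI : C'.Normal := hCn.comap π
  have hC'p : IsPGroup p ↥C' := hCp.comap_of_ker_isPGroup π (by rwa [hπ, QuotientGroup.ker_mk'])
  have hC'O : C' ≤ O := hOmax C' inferInstance hC'p
  exact hPO fun x hx => hC'O (Subgroup.mem_comap.mpr (hPC (by rw [hPb, Sylow.coe_mapSurjective]; exact ⟨x, hx, rfl⟩)))

/-- The structure theorem. -/
theorem structure_of_twoGenerated_sylow (P : Sylow p G) (hna : ¬ IsMulCommutative (P : Subgroup G))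
    (hgen : (frattini ↥(P : Subgroup G)).index = p ^ 2) (hO : pPrimeCore p G = ⊥)
    (hfrat : ((frattini ↥(P : Subgroup G)).map (P : Subgroup G).subtype).normalCore = ⊥)
    [hFn : (generalizedFittingSubgroup G).Normal] :
    (generalizedFittingSubgroup G ≠ ⊥ ∧
        ∀ K : Subgroup G, K.Normal → K ≠ ⊥ → generalizedFittingSubgroup G ≤ K) ∧
      IsCyclic ↥((P : Subgroup G).map (QuotientGroup.mk' (generalizedFittingSubgroup G))) ∧
      (¬ IsMulCommutative (generalizedFittingSubgroup G) → ∀ K L : Subgroup G, IsComponent K →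
        IsComponent L → ∃ x ∈ (P : Subgroup G), L = K.map (MulAut.conj x).toMonoidHom) := by
  set Φ := (frattini ↥(P : Subgroup G)).map (P : Subgroup G).subtype with hΦ
  have hΦP : Φ ≤ (P : Subgroup G) := Subgroup.map_subtype_le _
  have hbotΦ : ∀ M : Subgroup G, M.Normal → M ≤ Φ → M = ⊥ := fun M hM h => by
    haveI := hM
    exact le_bot_iff.mp (hfrat ▸ Subgroup.normal_le_normalCore.mpr h)
  -- (A) normal subgroups leave the Frattini subgroup
  have hA : ∀ M : Subgroup G, M.Normal → M ≠ ⊥ → ¬ M.subgroupOf (P : Subgroup G) ≤ frattini ↥(P : Subgroup G) := by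
    intro M hM hne hle
    haveI := hM
    have h1 : M ⊓ (P : Subgroup G) ≤ Φ := fun x hx => ⟨⟨x, hx.2⟩, hle hx.1, rfl⟩
    have hp := isPGroup_of_hasNormalPComplement hO hM.isSubnormal
      (Transfer.tate_normal_pComplement P M h1)
    exact hne (hbotΦ M hM ((le_inf le_rfl (IsPGroup.le_sylow_of_normal hp P)).trans h1))
  have hcyc : ∀ M : Subgroup G, M.Normal → M ≠ ⊥ →
      ∀ _ : (M.subgroupOf (P : Subgroup G)).Normal, IsCyclic (↥(P : Subgroup G) ⧸ M.subgroupOf (P : Subgroup G)) :=
    fun M hM hne _ => isCyclic_quotient_of_not_le_frattini P.2 hgen _ (hA M hM hne)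
  have hdisj : ∀ M₁ M₂ : Subgroup G, ∀ [(M₁.subgroupOf (P : Subgroup G)).Normal] [(M₂.subgroupOf (P : Subgroup G)).Normal],
      IsCyclic (↥(P : Subgroup G) ⧸ M₁.subgroupOf (P : Subgroup G)) →
      IsCyclic (↥(P : Subgroup G) ⧸ M₂.subgroupOf (P : Subgroup G)) → M₁ ⊓ M₂ = ⊥ → False := by
    intro M₁ M₂ _ _ h1 h2 hd
    refine hna (commute_of_cyclic_quotients h1 h2 ?_)
    rw [eq_bot_iff]
    intro x hx
    have h3 : (x : G) ∈ M₁ ⊓ M₂ := ⟨hx.1, hx.2⟩
    rw [hd, Subgroup.mem_bot] at h3
    exact Subgroup.mem_bot.mpr (Subtype.ext h3)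
  -- a minimal normal subgroup
  have hGne : (⊤ : Subgroup G) ≠ ⊥ := by
    intro e
    refine hna ⟨⟨fun a b => Subtype.ext ?_⟩⟩
    have ha : (a : G) = 1 := Subgroup.mem_bot.mp (e ▸ Subgroup.mem_top (a : G))
    have hb : (b : G) = 1 := Subgroup.mem_bot.mp (e ▸ Subgroup.mem_top (b : G))
    show (a : G) * b = b * a
    rw [ha, hb]
  obtain ⟨N, hNs⟩ := Set.Finite.exists_minimal
    (Set.toFinite {M : Subgroup G | M.Normal ∧ M ≠ ⊥}) ⟨⊤, inferInstance, hGne⟩
  obtain ⟨⟨hNn, hNne⟩, hNmin⟩ := hNs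
  haveI := hNn
  have hmin : ∀ K : Subgroup G, K.Normal → K ≠ ⊥ → N ≤ K := by
    intro K hK hKne
    haveI := hK
    by_contra hle
    have hd : N ⊓ K = ⊥ := by
      by_contra h
      exact hle ((hNmin ⟨inferInstance, h⟩ inf_le_left).trans inf_le_right)
    haveI : (N.subgroupOf (P : Subgroup G)).Normal := Subgroup.normal_subgroupOf
    haveI : (K.subgroupOf (P : Subgroup G)).Normal := Subgroup.normal_subgroupOf
    exact hdisj N K (hcyc N hNn hNne inferInstance) (hcyc K hK hKne inferInstance) hd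
  -- the image of `P` is cyclic
  have hPc : IsCyclic ↥((P : Subgroup G).map (QuotientGroup.mk' N)) := by
    haveI : (N.subgroupOf (P : Subgroup G)).Normal := Subgroup.normal_subgroupOf
    haveI := hcyc N hNn hNne inferInstance
    let f : ↥(P : Subgroup G) →* ↥((P : Subgroup G).map (QuotientGroup.mk' N)) :=
      ((QuotientGroup.mk' N).comp (P : Subgroup G).subtype).codRestrict _ fun x => ⟨x, x.2, rfl⟩
    refine isCyclic_of_surjective (QuotientGroup.lift (N.subgroupOf (P : Subgroup G)) f ?_) ?_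
    · intro x hx
      exact Subtype.ext ((QuotientGroup.eq_one_iff (x : G)).mpr (Subgroup.mem_subgroupOf.mp hx))
    · rintro ⟨_, x, hx, rfl⟩
      exact ⟨QuotientGroup.mk ⟨x, hx⟩, rfl⟩
  -- `F*(G) = N`
  have hF : generalizedFittingSubgroup G = N := by
    by_cases hFit : fittingSubgroup G = ⊥
    · rw [generalizedFittingSubgroup, hFit, sup_bot_eq]
      refine le_antisymm ?_ (hmin _ inferInstance ?_)
      · rw [← sSup_minimal_normal_eq_layer hFit]
        refine sSup_le ?_
        rintro M ⟨hMne, hMn, hMmin⟩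
        rcases hMmin N hNn (hmin M hMn hMne) with h | h
        · exact absurd h hNne
        · exact h.ge
      · intro hE
        apply hGne
        have h1 := centralizer_generalizedFitting_le_fitting (G := G)
        rw [generalizedFittingSubgroup, hE, hFit, sup_bot_eq, Subgroup.coe_bot,
          Subgroup.centralizer_eq_top_iff_subset.mpr (by rintro x rfl; exact one_mem _)] at h1
        exact le_bot_iff.mp h1
    have hFp : fittingSubgroup G = pCore p G := Constrained.fitting_eq_pCore hO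
    set O := pCore p G with hOdef
    have hOne : O ≠ ⊥ := hFp ▸ hFit
    have hNO : N ≤ O := hmin O inferInstance hOne
    have hOp : IsPGroup p ↥O := Constrained.isPGroup_pCore
    have hNp : IsPGroup p ↥N := hOp.to_le hNO
    have hE : layer G = ⊥ := by
      by_contra hEne
      set E := layer G with hEdef
      have hNE : N ≤ E := hmin E inferInstance hEne
      have hNc : N.subgroupOf E ≤ Subgroup.center ↥E := fun x hx => Subgroup.mem_center_iff.mpr fun e =>
        Subtype.ext (commute_of_commutator_eq_bot commutator_fitting_layer (hFp ▸ hNO (Subgroup.mem_subgroupOf.mp hx)) e.2).symm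
      haveI : (N.subgroupOf E).Normal := Subgroup.normal_subgroupOf
      obtain ⟨S⟩ := (inferInstance : Nonempty (Sylow p ↥E))
      have hNS : N.subgroupOf E ≤ (S : Subgroup ↥E) :=
        IsPGroup.le_sylow_of_normal (hNp.comap_of_injective E.subtype E.subtype_injective) S
      haveI := isCyclic_map_of_le_conj P hPc (S.2.map E.subtype)
      let f : ↥(S : Subgroup ↥E) →* ↥(((S : Subgroup ↥E).map E.subtype).map (QuotientGroup.mk' N)) :=
        ((QuotientGroup.mk' N).comp (E.subtype.comp (S : Subgroup ↥E).subtype)).codRestrict _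
          fun x => ⟨_, ⟨_, x.2, rfl⟩, rfl⟩
      have hab : ∀ a b : ↥(S : Subgroup ↥E), a * b = b * a := by
        refine commutative_of_cyclic_center_quotient f fun x hx => ?_
        have hxN : ((x : ↥E) : G) ∈ N :=
          (QuotientGroup.eq_one_iff _).mp (congrArg Subtype.val (MonoidHom.mem_ker.mp hx))
        exact Subgroup.mem_center_iff.mpr fun y => Subtype.ext
          (Subgroup.mem_center_iff.mp (hNc (Subgroup.mem_subgroupOf.mpr hxN)) (y : ↥E))
      have hperf : commutator ↥E = ⊤ := by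
        apply Subgroup.map_injective E.subtype_injective
        rw [commutator_def, Subgroup.map_commutator, map_subtype_top, hEdef, isPerfect_layer]
      apply hNne
      rw [eq_bot_iff]
      intro z hz
      have := center_eq_bot_of_perfect_of_abelian_sylow hperf S hab (z := ⟨z, hNE hz⟩)
        (hNc (Subgroup.mem_subgroupOf.mpr hz)) (hNS (Subgroup.mem_subgroupOf.mpr hz))
      exact Subgroup.mem_bot.mpr (congrArg Subtype.val this)
    have hFO : generalizedFittingSubgroup G = O := by
      rw [generalizedFittingSubgroup, hE, bot_sup_eq, hFp]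
    rw [hFO]
    refine le_antisymm ?_ hNO
    have hOP : O ≤ (P : Subgroup G) := IsPGroup.le_sylow_of_normal hOp P
    have hOΦ : frattini ↥O = ⊥ := by
      apply Subgroup.map_injective O.subtype_injective
      rw [Subgroup.map_bot]
      haveI : (frattini ↥O).Characteristic := inferInstance
      refine hbotΦ _ ConjAct.normal_of_characteristic_of_normal ?_
      haveI : (O.subgroupOf (P : Subgroup G)).Normal := Subgroup.normal_subgroupOf
      set e := Subgroup.subgroupOfEquivOfLe hOP
      have h1 := Cfsg.Agent.S0575.result (O.subgroupOf (P : Subgroup G))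
      rintro _ ⟨x, hx, rfl⟩
      have h2 : e.symm x ∈ frattini ↥(O.subgroupOf (P : Subgroup G)) :=
        frattini_le_comap_frattini_of_surjective e.symm.surjective (φ := e.symm.toMonoidHom) hx
      exact ⟨_, h1 ⟨_, h2, rfl⟩, rfl⟩
    obtain ⟨hOc, hOe⟩ := (PGroup.frattini_eq_bot_iff hOp).mp hOΦ
    refine eq_bot_of_cyclic_mod hO hmin hNO hNne hOp (fun K hK hKp => Constrained.le_pCore hK hKp)
      ⟨⟨hOc⟩⟩ ?_ (fun o ho => congrArg Subtype.val (hOe ⟨o, ho⟩)) P hPc fun hle => hna ?_
    · exact (hFO ▸ centralizer_generalizedFitting_le_fitting (G := G)).trans hFp.le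
    · exact ⟨⟨fun a b => Subtype.ext (congrArg Subtype.val (hOc ⟨a, hle a.2⟩ ⟨b, hle b.2⟩) :)⟩⟩
  refine ⟨hF.symm ▸ ⟨hNne, hmin⟩, ?_, ?_⟩
  · subst hF; exact hPc
  -- transitivity
  intro hnc K L hK hL
  rw [hF] at hnc
  have hFit : fittingSubgroup G = ⊥ := by
    by_contra hne
    have hNF : N ≤ fittingSubgroup G := hmin _ inferInstance hne
    haveI := isSolvable_of_le hNF fittingSubgroup_isSolvable
    have hc : ⁅N, N⁆ = ⊥ := by
      by_contra h
      have hlt := Coprime.commutator_self_lt (H := N) inferInstance hNne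
      exact hlt.not_ge (hNmin ⟨inferInstance, h⟩ hlt.le)
    exact hnc ⟨⟨fun a b => Subtype.ext (commute_of_commutator_eq_bot hc a.2 b.2)⟩⟩
  by_contra hno
  push Not at hno
  set s : Set (Subgroup G) := {T | IsComponent T ∧ ∃ x ∈ (P : Subgroup G), T = K.map (MulAut.conj x).toMonoidHom} with hs
  set s' : Set (Subgroup G) := {T | IsComponent T ∧ T ∉ s} with hs'
  have hKs : K ∈ s := ⟨hK, 1, one_mem _, (Coprime.map_conj_one K).symm⟩
  have hLs : L ∈ s' := ⟨hL, fun h => by obtain ⟨x, hx, e⟩ := h.2; exact hno x hx e⟩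
  have hconj : ∀ T ∈ s, ∀ x ∈ (P : Subgroup G), T.map (MulAut.conj x).toMonoidHom ∈ s := by
    rintro T ⟨hT, y, hy, rfl⟩ x hx
    exact ⟨isComponent_conj hT x, x * y, mul_mem hx hy, Coprime.map_conj_map_conj y x K⟩
  have hPn : ∀ t : Set (Subgroup G), (∀ T ∈ t, ∀ x ∈ (P : Subgroup G), T.map (MulAut.conj x).toMonoidHom ∈ t) →
      (P : Subgroup G) ≤ Subgroup.normalizer ((sSup t : Subgroup G) : Set G) := by
    intro t ht
    refine Coprime.le_normalizer_of_conj_mem fun x hx y hy => ?_
    have hle : sSup t ≤ (sSup t).comap (MulAut.conj x).toMonoidHom := sSup_le fun T hT =>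
      Subgroup.map_le_iff_le_comap.mp (le_sSup (ht T hT x hx))
    exact hle hy
  have hconj' : ∀ T ∈ s', ∀ x ∈ (P : Subgroup G), T.map (MulAut.conj x).toMonoidHom ∈ s' := by
    rintro T ⟨hT, hTs⟩ x hx
    refine ⟨isComponent_conj hT x, fun h => hTs ?_⟩
    have := hconj _ h x⁻¹ (inv_mem hx)
    rwa [Coprime.map_conj_map_conj, inv_mul_cancel, Coprime.map_conj_one] at this
  have hbad : ∀ t : Set (Subgroup G), (∀ T ∈ t, IsComponent T) → t.Nonempty →
      (∀ T ∈ t, ∀ x ∈ (P : Subgroup G), T.map (MulAut.conj x).toMonoidHom ∈ t) →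
      ¬ (sSup t).subgroupOf (P : Subgroup G) ≤ frattini ↥(P : Subgroup G) := by
    intro t ht hne htP hle
    obtain ⟨T0, hT0⟩ := hne
    set M := sSup t with hM
    set T := M ⊔ (P : Subgroup G) with hT
    have hTn : T ≤ Subgroup.normalizer (M : Set G) := sup_le Subgroup.le_normalizer (hPn t htP)
    haveI : (M.subgroupOf T).Normal := (Subgroup.normal_subgroupOf_iff_le_normalizer le_sup_left).mpr hTn
    have hPT : (P : Subgroup G) ≤ T := le_sup_right
    have h1 : M.subgroupOf T ⊓ (P.subtype hPT : Subgroup ↥T) ≤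
        (frattini ↥(P.subtype hPT : Subgroup ↥T)).map (P.subtype hPT : Subgroup ↥T).subtype := by
      intro x hx
      let e : ↥(P : Subgroup G) ≃* ↥(P.subtype hPT : Subgroup ↥T) := (Subgroup.subgroupOfEquivOfLe hPT).symm
      refine ⟨e ⟨x, hx.2⟩, ?_, rfl⟩
      exact frattini_le_comap_frattini_of_surjective e.surjective (φ := e.toMonoidHom)
        (hle (show (⟨(x : G), hx.2⟩ : ↥(P : Subgroup G)) ∈ M.subgroupOf (P : Subgroup G) from hx.1))
    have hnpc := (Transfer.hasNormalPComplement_congr (Subgroup.subgroupOfEquivOfLe (le_sup_left : M ≤ T))).mp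
      (Transfer.tate_normal_pComplement (P.subtype hPT) (M.subgroupOf T) h1)
    have hMn : M.IsSubnormal := by
      have hle2 : M ≤ layer G := sSup_le fun T' hT' => le_layer (ht T' hT')
      refine Subgroup.IsSubnormal.trans hle2 ?_ (inferInstance : (layer G).Normal).isSubnormal
      refine ((Subgroup.normal_subgroupOf_iff_le_normalizer hle2).mpr ?_).isSubnormal
      refine layer_le fun T' hT' => Coprime.le_normalizer_of_conj_mem fun x hx y hy => ?_
      have hle : M ≤ M.comap (MulAut.conj x).toMonoidHom := sSup_le fun T'' hT'' => by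
        rw [← Subgroup.map_le_iff_le_comap]
        refine le_trans ?_ (le_sSup hT'')
        rintro _ ⟨w, hw, rfl⟩
        exact (Subgroup.mem_normalizer_iff.mp (component_le_normalizer hT' (ht T'' hT'') hx) w).mp hw
      exact hle hy
    have hperf : ⁅M, M⁆ = M := le_antisymm (Subgroup.commutator_le_self M) (sSup_le fun T' hT' =>
      (commutator_self_of_isComponent (ht T' hT')).ge.trans (Subgroup.commutator_mono (le_sSup hT') (le_sSup hT')))
    have hp := isPGroup_of_hasNormalPComplement hO hMn hnpc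
    haveI := hp.isNilpotent
    have hs' : Group.IsSolvable ↥M := inferInstance
    exact ne_bot_of_isComponent (ht T0 hT0) (le_bot_iff.mp ((le_sSup hT0).trans (le_of_eq (by
      by_contra hMne
      exact (Coprime.commutator_self_lt hs' hMne).ne hperf))))
  have hPs := hPn s hconj
  have hPs' := hPn s' hconj'
  haveI : ((sSup s).subgroupOf (P : Subgroup G)).Normal := by
    refine ⟨fun n hn g => ?_⟩
    rw [Subgroup.mem_subgroupOf] at hn ⊢
    exact (Subgroup.mem_normalizer_iff.mp (hPs g.2) _).mp hn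
  haveI : ((sSup s').subgroupOf (P : Subgroup G)).Normal := by
    refine ⟨fun n hn g => ?_⟩
    rw [Subgroup.mem_subgroupOf] at hn ⊢
    exact (Subgroup.mem_normalizer_iff.mp (hPs' g.2) _).mp hn
  have hd : sSup s ⊓ sSup s' = ⊥ := by
    have hcomm : ⁅sSup s, sSup s'⁆ = ⊥ := commutator_sSup_eq_bot fun T' hT' =>
      commutator_eq_bot_comm.mp (commutator_sSup_eq_bot fun T hT =>
        commutator_eq_bot_of_ne hT'.1 hT.1 fun e => hT'.2 (e ▸ hT))
    have hcs : layer G ≤ sSup s ⊔ sSup s' := layer_le fun T hT => by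
      by_cases h : T ∈ s
      · exact (le_sSup h).trans le_sup_left
      · exact (le_sSup (show T ∈ s' from ⟨hT, h⟩)).trans le_sup_right
    have hZ : sSup s ⊓ sSup s' ≤ (Subgroup.center ↥(layer G)).map (layer G).subtype := by
      rintro x ⟨hx1, hx2⟩
      have hxl : x ∈ layer G := (sSup_le fun T hT => le_layer hT.1 : sSup s ≤ layer G) hx1
      refine ⟨⟨x, hxl⟩, Subgroup.mem_center_iff.mpr fun g => Subtype.ext ?_, rfl⟩
      have hle : sSup s ⊔ sSup s' ≤ Subgroup.centralizer ({x} : Set G) := sup_le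
        (fun y hy => Subgroup.mem_centralizer_singleton_iff.mpr (commute_of_commutator_eq_bot hcomm hy hx2))
        (fun y hy => Subgroup.mem_centralizer_singleton_iff.mpr (commute_of_commutator_eq_bot hcomm hx1 hy).symm)
      exact Subgroup.mem_centralizer_singleton_iff.mp (hle (hcs g.2))
    have hle : (Subgroup.center ↥(layer G)).map (layer G).subtype ≤ fittingSubgroup G := by
      refine le_fittingSubgroup_of_isMulCommutative inferInstance ?_
      refine ⟨⟨?_⟩⟩
      rintro ⟨_, a, ha, rfl⟩ ⟨_, b, hb, rfl⟩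
      exact Subtype.ext (congrArg (fun w : ↥(layer G) => (w : G)) (Subgroup.mem_center_iff.mp ha b).symm)
    exact le_bot_iff.mp (hFit ▸ hZ.trans hle)
  exact hdisj (sSup s) (sSup s')
    (isCyclic_quotient_of_not_le_frattini P.2 hgen _ (hbad s (fun T h => h.1) ⟨K, hKs⟩ hconj))
    (isCyclic_quotient_of_not_le_frattini P.2 hgen _ (hbad s' (fun T h => h.1) ⟨L, hLs⟩ hconj')) hd

end CfsgLib.Cores
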